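import Cfsg.Agent.H9.C3Defs

/-!
Project C3, piece L34: a simple group of order 20160 whose involution centralizers are 2-groups
has no module of order 256 with small fixed points for the elements of order 3.
-/

set_option autoImplicit false

namespace Cfsg.Agent.H13.C3L34

open Subgroup Cfsg.Agent.H9.C3

universe u

section General

variable {G : Type*} [Group G]

theorem index_le_of {X : Type*} [Finite X] (S : Subgroup G) (φ : G → X)
    (h : ∀ a b, φ a = φ b → a⁻¹ * b ∈ S) : S.index ≤ Nat.card X :=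
  Nat.card_le_card_of_injective (fun q : G ⧸ S => φ q.out) fun q q' e => by
    rw [← q.out_eq, ← q'.out_eq]
    exact QuotientGroup.eq.2 (h _ _ e)

theorem card_modEq {B : Type*} [Finite B] (f : B → B) {p : ℕ} [Fact p.Prime]
    (hf : ∀ b, f^[p] b = b) : Nat.card B ≡ Nat.card {b // f b = b} [MOD p] := by
  classical
  have := Fintype.ofFinite B
  have h := Equiv.Perm.card_fixedPoints_modEq (f := (f : Function.End B)) (p := p) (n := 1) (by
    rw [pow_one]
    exact (hom_coe_pow (fun g : Function.End B => g) rfl (fun _ _ => rfl) f p).trans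
      (funext hf))
  rw [Nat.card_eq_fintype_card, Nat.card_eq_fintype_card]
  exact h

theorem mem_zpowers_coe {Y : Subgroup G} {x z : Y} (h : (z : G) ∈ zpowers (x : G)) :
    z ∈ zpowers x := by
  obtain ⟨n, hn⟩ := h
  exact ⟨n, Subtype.ext (by simpa using hn)⟩

theorem cen_zpowers (g : G) : centralizer (zpowers g : Set G) = centralizer {g} := by
  rw [zpowers_eq_closure, centralizer_closure]

theorem zpowers_le_cen (g : G) : zpowers g ≤ centralizer {g} :=
  zpowers_le.2 (mem_centralizer_singleton_iff.2 rfl)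

variable [Finite G]

theorem card_modEq_one {g : G} {p : ℕ} [Fact p.Prime] (hg : g ^ p = 1) (B : Subgroup G)
    (hn : ∀ b ∈ B, g * b * g⁻¹ ∈ B) (hc : ∀ b ∈ B, g * b = b * g → b = 1) :
    Nat.card B ≡ 1 [MOD p] := by
  let f : B → B := fun b => ⟨g * b * g⁻¹, hn _ b.2⟩
  have hit : ∀ n (b : B), (f^[n] b : G) = g ^ n * b * (g ^ n)⁻¹ := fun n b => by
    induction n with
    | zero => simp
    | succ n ih =>
      rw [Function.iterate_succ_apply']
      show g * (f^[n] b : G) * g⁻¹ = _
      rw [ih, pow_succ']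
      group
  have h := card_modEq f (p := p) fun b => Subtype.ext (by rw [hit, hg]; simp)
  have h1 : Nat.card {b // f b = b} = 1 := by
    rw [Nat.card_eq_one_iff_exists]
    refine ⟨⟨1, Subtype.ext (by simp [f])⟩, fun b => Subtype.ext (Subtype.ext ?_)⟩
    refine hc _ b.1.2 ?_
    have := congrArg Subtype.val b.2
    exact mul_inv_eq_iff_eq_mul.1 this
  rwa [h1] at h

theorem exists_sylow {g : G} {p : ℕ} [hp : Fact p.Prime] (hg : orderOf g = p)
    (h2 : ¬ p * p ∣ Nat.card G) : ∃ P : Sylow p G, (P : Subgroup G) = zpowers g := by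
  have hc : Nat.card (zpowers g) = p := by rw [Nat.card_zpowers, hg]
  have hP : IsPGroup p (zpowers g) := IsPGroup.of_card (n := 1) (by rw [hc, pow_one])
  refine ⟨hP.toSylow fun h => h2 ?_, rfl⟩
  rw [← (zpowers g).card_mul_index, hc]
  exact Nat.mul_dvd_mul_left _ h

theorem index_modEq {g : G} {p : ℕ} [hp : Fact p.Prime] (hg : orderOf g = p)
    (h2 : ¬ p * p ∣ Nat.card G) : (normalizer (zpowers g : Set G)).index ≡ 1 [MOD p] := by
  obtain ⟨P, hP⟩ := exists_sylow hg h2
  have := card_sylow_modEq_one p G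
  rw [P.card_eq_index_normalizer] at this
  rw [← hP]
  exact this

theorem card_norm {g : G} {p : ℕ} [hp : Fact p.Prime] (hg : orderOf g = p) :
    ∃ d, d ∣ p - 1 ∧ Nat.card (normalizer (zpowers g : Set G)) =
      Nat.card (centralizer ({g} : Set G)) * d := by
  have key := card_dvd_of_injective _
    (QuotientGroup.kerLift_injective (zpowers g).normalizerMonoidHom)
  rw [normalizerMonoidHom_ker, ← index, ← relIndex, IsCyclic.card_mulAut, Nat.card_zpowers, hg,
    Nat.totient_prime hp.out] at key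
  refine ⟨_, key, ?_⟩
  have hle : centralizer (zpowers g : Set G) ≤ normalizer (zpowers g : Set G) :=
    centralizer_le_normalizer _
  rw [relIndex, ← cen_zpowers, ← Nat.card_congr (subgroupOfEquivOfLe hle).toEquiv, card_mul_index]

theorem burnside {g : G} {p : ℕ} [hp : Fact p.Prime] (hg : orderOf g = p)
    (h2 : ¬ p * p ∣ Nat.card G) (h : normalizer (zpowers g : Set G) ≤ centralizer {g}) :
    ∃ K : Subgroup G, K.Normal ∧ Nat.card K * p = Nat.card G := by
  obtain ⟨P, hP⟩ := exists_sylow hg h2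
  have h' : normalizer ((P : Subgroup G) : Set G) ≤ centralizer ((P : Subgroup G) : Set G) := by
    rw [hP, cen_zpowers]; exact h
  have := (MonoidHom.ker_transferSylow_isComplement' P h').card_mul_card
  have hc : Nat.card (P : Subgroup G) = p := by rw [hP, Nat.card_zpowers, hg]
  rw [hc] at this
  exact ⟨_, inferInstance, this⟩

theorem class_bound {K : Subgroup G} [hK : K.Normal] {m : ℕ} (h : Nat.card K * m = Nat.card G)
    {x : G} (hx : x ∈ K) : m ≤ Nat.card (centralizer ({x} : Set G)) := by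
  have h1 := index_le_of (centralizer ({x} : Set G))
    (fun a => (⟨a * x * a⁻¹, hK.conj_mem x hx a⟩ : K)) fun a b e => by
      have e' : a * x * a⁻¹ = b * x * b⁻¹ := congrArg Subtype.val e
      rw [mem_centralizer_singleton_iff]
      calc a⁻¹ * b * x = a⁻¹ * (b * x * b⁻¹) * b := by group
        _ = x * (a⁻¹ * b) := by rw [← e']; group
  have h2 := (centralizer ({x} : Set G)).card_mul_index
  have h3 : 0 < Nat.card K := Nat.card_pos
  refine Nat.le_of_mul_le_mul_left ?_ h3
  rw [h, ← h2, mul_comm]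
  exact Nat.mul_le_mul_right _ h1

theorem exists_mem_orderOf {H : Subgroup G} {p : ℕ} (hp : p.Prime) (h : p ∣ Nat.card H) :
    ∃ x ∈ H, orderOf x = p := by
  have := Fact.mk hp
  obtain ⟨x, hx⟩ := exists_prime_orderOf_dvd_card' p h
  exact ⟨x, x.2, by rwa [orderOf_coe]⟩

end General

section TI

variable {G : Type*} [Group G] [Finite G]

theorem cen_two (hc : ∀ t : G, orderOf t = 2 → IsPGroup 2 (centralizer ({t} : Set G)))
    {K : Subgroup G} (hK : IsPGroup 2 K) {w : G} (hw : w ∈ K) (h1 : w ≠ 1) :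
    IsPGroup 2 (centralizer ({w} : Set G)) := by
  have h2 : 2 ∣ Nat.card (zpowers w) := by
    obtain ⟨n, hn⟩ := (hK.to_le (zpowers_le.2 hw)).exists_card_eq
    rw [hn]
    refine dvd_pow_self _ fun h0 => h1 ?_
    rw [h0, pow_zero, Nat.card_zpowers, orderOf_eq_one_iff] at hn
    exact hn
  obtain ⟨t, ⟨n, rfl⟩, ht⟩ := exists_mem_orderOf Nat.prime_two h2
  refine (hc _ ht).to_le fun a ha => ?_
  rw [mem_centralizer_singleton_iff] at ha ⊢
  exact (Commute.zpow_right ha n).eq

/-- The centre of a subgroup. -/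
abbrev Zc (K : Subgroup G) : Subgroup G := K ⊓ centralizer (K : Set G)

theorem cen_eq (hc : ∀ t : G, orderOf t = 2 → IsPGroup 2 (centralizer ({t} : Set G)))
    (K : Sylow 2 G) {z : G} (hz : z ∈ Zc (K : Subgroup G)) (h1 : z ≠ 1) :
    centralizer ({z} : Set G) = K :=
  K.is_maximal' (cen_two hc K.isPGroup' hz.1 h1) fun a ha =>
    mem_centralizer_singleton_iff.2 (hz.2 a ha)

theorem eq_of_Zc_le (hc : ∀ t : G, orderOf t = 2 → IsPGroup 2 (centralizer ({t} : Set G)))
    (h64 : ∀ K : Sylow 2 G, Nat.card (K : Subgroup G) = 64)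
    (h8 : ∀ K : Sylow 2 G, 8 ≤ Nat.card (Zc (K : Subgroup G))) (K K' : Sylow 2 G)
    (h : Zc (K : Subgroup G) ≤ K') : K = K' := by
  by_cases hd : Disjoint (Zc (K : Subgroup G)) (Zc (K' : Subgroup G))
  · obtain ⟨z, hz, h1⟩ : ∃ z ∈ Zc (K : Subgroup G), z ≠ 1 := by
      by_contra hn
      push Not at hn
      have := h8 K
      rw [(eq_bot_iff_forall _).2 hn, card_bot] at this
      omega
    have h2 : Zc (K' : Subgroup G) ≤ K := fun b hb => by
      rw [← cen_eq hc K hz h1, mem_centralizer_singleton_iff]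
      exact (hb.2 z (h hz)).symm
    have h3 : Nat.card (Zc (K : Subgroup G) × Zc (K' : Subgroup G)) ≤
        Nat.card ((K : Subgroup G) ⊓ K' : Subgroup G) :=
      Nat.card_le_card_of_injective
        (fun a => ⟨a.1 * a.2, mul_mem a.1.2.1 (h2 a.2.2), mul_mem (h a.1.2) a.2.2.1⟩)
        fun a b e => mul_injective_of_disjoint hd (congrArg Subtype.val e)
    rw [Nat.card_prod] at h3
    have h4 := Nat.mul_le_mul (h8 K) (h8 K')
    have h5 : (K : Subgroup G) ⊓ K' = K :=
      eq_of_le_of_card_ge inf_le_left (by rw [h64 K]; omega)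
    exact Sylow.ext (K.is_maximal' K'.isPGroup' (inf_eq_left.1 h5)).symm
  · rw [disjoint_def] at hd
    push Not at hd
    obtain ⟨z, hz, hz', h1⟩ := hd
    exact Sylow.ext ((cen_eq hc K hz h1).symm.trans (cen_eq hc K' hz' h1))

theorem ti (hc : ∀ t : G, orderOf t = 2 → IsPGroup 2 (centralizer ({t} : Set G)))
    (h64 : ∀ K : Sylow 2 G, Nat.card (K : Subgroup G) = 64)
    (h8 : ∀ K : Sylow 2 G, 8 ≤ Nat.card (Zc (K : Subgroup G))) (K K' : Sylow 2 G) {w : G}
    (hw : w ∈ (K : Subgroup G)) (hw' : w ∈ (K' : Subgroup G)) (h1 : w ≠ 1) : K = K' := by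
  obtain ⟨S, hS⟩ := (cen_two hc K.isPGroup' hw h1).exists_le_sylow
  have key : ∀ T : Sylow 2 G, w ∈ (T : Subgroup G) → T = S := fun T hT =>
    eq_of_Zc_le hc h64 h8 T S fun z hz => hS (mem_centralizer_singleton_iff.2 (hz.2 w hT).symm)
  rw [key K hw, key K' hw']

theorem card_Zc_le (K K' : Sylow 2 G) :
    Nat.card (Zc (K : Subgroup G)) ≤ Nat.card (Zc (K' : Subgroup G)) := by
  obtain ⟨g, rfl⟩ := MulAction.exists_smul_eq G K K'
  have hm : ∀ a, a ∈ ((g • K : Sylow 2 G) : Subgroup G) ↔ g⁻¹ * a * g ∈ (K : Subgroup G) :=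
    fun a => by
      rw [Sylow.coe_subgroup_smul, mem_pointwise_smul_iff_inv_smul_mem]
      simp
  refine Nat.card_le_card_of_injective
    (fun a => ⟨g * a * g⁻¹, (hm _).2 (by
      rw [show g⁻¹ * (g * a * g⁻¹) * g = a by group]; exact a.2.1), fun b hb => ?_⟩)
    fun a b e => Subtype.ext (by simpa using congrArg Subtype.val e)
  have := a.2.2 _ ((hm b).1 hb)
  calc b * (g * a * g⁻¹) = g * (g⁻¹ * b * g * a) * g⁻¹ := by group
    _ = g * a * g⁻¹ * b := by rw [this]; group

/-- A Sylow 2-subgroup of order 64 normalized by a self-centralizing element of order 7. -/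
theorem no_448 (hs : IsSimpleGroup G) (hG : Nat.card G = 20160)
    (hc : ∀ t : G, orderOf t = 2 → IsPGroup 2 (centralizer ({t} : Set G))) {g : G}
    (hg : orderOf g = 7) (hcg : Nat.card (centralizer ({g} : Set G)) = 7) {K : Subgroup G}
    (hK : Nat.card K = 64) (hn : ∀ b ∈ K, g * b * g⁻¹ ∈ K) : False := by
  have : Fact (Nat.Prime 7) := ⟨by norm_num⟩
  have hK2 : IsPGroup 2 K := IsPGroup.of_card (n := 6) (by rw [hK]; norm_num)
  have hidx : K.index = 315 := by
    have := K.card_mul_index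
    rw [hK, hG] at this
    omega
  let S : Sylow 2 G := hK2.toSylow (by rw [hidx]; norm_num)
  have hS : (S : Subgroup G) = K := rfl
  have h64 : ∀ T : Sylow 2 G, Nat.card (T : Subgroup G) = 64 := fun T => by
    rw [← hK, ← hS]
    exact Nat.card_congr (T.equiv S).toEquiv
  have hgN : g ∈ normalizer (K : Set G) := mem_normalizer_fintype hn
  have hZ : 8 ≤ Nat.card (Zc K) := by
    have h1 := card_modEq_one (g := g) (p := 7) (by rw [← hg, pow_orderOf_eq_one]) (Zc K)
      (fun b hb => ⟨hn b hb.1, fun a ha => by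
        have := hb.2 _ ((mem_normalizer_iff''.1 hgN a).1 ha)
        calc a * (g * b * g⁻¹) = g * (g⁻¹ * a * g * b) * g⁻¹ := by group
          _ = g * b * g⁻¹ * a := by rw [this]; group⟩)
      (fun b hb e => by
        have h1 := orderOf_dvd_natCard (⟨b, hb.1⟩ : K)
        have h2 := orderOf_dvd_natCard
          (⟨b, mem_centralizer_singleton_iff.2 e.symm⟩ : centralizer ({g} : Set G))
        rw [orderOf_mk] at h1 h2
        rw [hK] at h1
        rw [hcg] at h2
        exact orderOf_eq_one_iff.1 (Nat.eq_one_of_dvd_coprimes (by norm_num) h1 h2))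
    have h2 : Nat.card (Zc K) ≠ 1 := by
      have : Nontrivial K := Finite.one_lt_card_iff_nontrivial.1 (by omega)
      have := hK2.center_nontrivial
      obtain ⟨⟨z, hz⟩, h1⟩ := exists_ne (1 : center K)
      intro h0
      have h3 : (z : G) ∈ Zc K :=
        ⟨z.2, fun a ha => congrArg Subtype.val (mem_center_iff.1 hz ⟨a, ha⟩)⟩
      rw [card_eq_one.1 h0, mem_bot] at h3
      exact h1 (Subtype.ext (Subtype.ext h3))
    have h3 : 0 < Nat.card (Zc K) := Nat.card_pos
    unfold Nat.ModEq at h1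
    omega
  have h8 : ∀ T : Sylow 2 G, 8 ≤ Nat.card (Zc (T : Subgroup G)) := fun T =>
    hZ.trans (card_Zc_le S T)
  have hN : 448 ∣ Nat.card (normalizer (K : Set G)) := by
    have h1 : 64 ∣ Nat.card (normalizer (K : Set G)) := hK ▸ card_dvd_of_le le_normalizer
    have h2 : 7 ∣ Nat.card (normalizer (K : Set G)) := by
      rw [← hg, ← Nat.card_zpowers]
      exact card_dvd_of_le (zpowers_le.2 hgN)
    exact Nat.Coprime.mul_dvd_of_dvd_of_dvd (by norm_num : Nat.Coprime 64 7) h1 h2
  have hn2 : Nat.card (Sylow 2 G) ≤ 45 := by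
    rw [S.card_eq_index_normalizer]
    have h1 := (normalizer (K : Set G)).card_mul_index
    have h2 := Nat.le_of_dvd Nat.card_pos hN
    have h3 := Nat.mul_le_mul_right (normalizer (K : Set G)).index h2
    rw [h1, hG] at h3
    show (normalizer (K : Set G)).index ≤ 45
    omega
  by_cases hall : ∀ T : Sylow 2 G, T = S
  · have : Subsingleton (Sylow 2 G) := ⟨fun a b => by rw [hall a, hall b]⟩
    rcases hs.eq_bot_or_eq_top_of_normal K (hS ▸ S.normal_of_subsingleton) with h | h
    · rw [h, card_bot] at hK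
      omega
    · rw [h, card_top, hG] at hK
      omega
  push Not at hall
  obtain ⟨T, hT⟩ := hall
  have h1 := index_le_of (⊥ : Subgroup K) (fun a => (a : G) • T) fun a b e => by
    have h1 : ((a⁻¹ * b : K) : G) ∈ normalizer (T : Set G) := by
      rw [← Sylow.smul_eq_iff_mem_normalizer, Subgroup.coe_mul, mul_smul, ← e, Subgroup.coe_inv,
        inv_smul_smul]
    have h2 : ((a⁻¹ * b : K) : G) ∈ K ⊓ (T : Subgroup G) := by
      rw [← hK2.inf_normalizer_sylow T]
      exact ⟨(a⁻¹ * b).2, h1⟩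
    by_contra h3
    exact hT (ti hc h64 h8 T S h2.2 h2.1 fun h4 => h3 (Subtype.ext h4))
  rw [index_bot, hK] at h1
  omega

end TI

section Orders

variable {G : Type*} [Group G] [Finite G]

theorem cen_dvd (hG : Nat.card G = 20160)
    (hc : ∀ t : G, orderOf t = 2 → IsPGroup 2 (centralizer ({t} : Set G)))
    (h3 : ∀ x : G, orderOf x = 3 → ∀ g : G, g * x = x * g → g ^ 3 = 1) {g : G}
    (hg : orderOf g = 5 ∨ orderOf g = 7) : Nat.card (centralizer ({g} : Set G)) ∣ 35 := by
  have a2 : ¬ 2 ∣ Nat.card (centralizer ({g} : Set G)) := fun h => by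
    obtain ⟨t, ht, ho⟩ := exists_mem_orderOf Nat.prime_two h
    obtain ⟨k, hk⟩ := hc t ho ⟨g, mem_centralizer_singleton_iff.2
      (mem_centralizer_singleton_iff.1 ht).symm⟩
    have h1 : orderOf g ∣ 2 ^ k := orderOf_dvd_of_pow_eq_one (congrArg Subtype.val hk)
    rcases hg with hg | hg <;> rw [hg] at h1
    · exact absurd ((by norm_num : Nat.Prime 5).dvd_of_dvd_pow h1) (by norm_num)
    · exact absurd ((by norm_num : Nat.Prime 7).dvd_of_dvd_pow h1) (by norm_num)
  have a3 : ¬ 3 ∣ Nat.card (centralizer ({g} : Set G)) := fun h => by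
    obtain ⟨t, ht, ho⟩ := exists_mem_orderOf Nat.prime_three h
    have h1 := orderOf_dvd_of_pow_eq_one (h3 t ho g (mem_centralizer_singleton_iff.1 ht).symm)
    rcases hg with hg | hg <;> rw [hg] at h1 <;> norm_num at h1
  have h1 := card_subgroup_dvd_card (centralizer ({g} : Set G))
  rw [hG, show 20160 = 2 ^ 6 * (3 ^ 2 * 35) by norm_num] at h1
  exact (((Nat.prime_three.coprime_iff_not_dvd.2 a3).symm).pow_right 2).dvd_of_dvd_mul_left
    ((((Nat.prime_two.coprime_iff_not_dvd.2 a2).symm).pow_right 6).dvd_of_dvd_mul_left h1)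

theorem orderOf_dvd_cen (g : G) : orderOf g ∣ Nat.card (centralizer ({g} : Set G)) := by
  rw [← Nat.card_zpowers]
  exact card_dvd_of_le (zpowers_le_cen g)

theorem cen_five (hs : IsSimpleGroup G) (hG : Nat.card G = 20160)
    (hc : ∀ t : G, orderOf t = 2 → IsPGroup 2 (centralizer ({t} : Set G)))
    (h3 : ∀ x : G, orderOf x = 3 → ∀ g : G, g * x = x * g → g ^ 3 = 1) {f : G}
    (hf : orderOf f = 5) : Nat.card (centralizer ({f} : Set G)) = 5 := by
  have : Fact (Nat.Prime 5) := ⟨by norm_num⟩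
  have h1 := cen_dvd hG hc h3 (Or.inl hf)
  have h2 := orderOf_dvd_cen f
  have h25 : ¬ 5 * 5 ∣ Nat.card G := by rw [hG]; norm_num
  have h4 := index_modEq hf h25
  obtain ⟨d, hd, h5⟩ := card_norm hf
  have h6 := (normalizer (zpowers f : Set G)).card_mul_index
  rw [hf] at h2
  have hle : centralizer ({f} : Set G) ≤ normalizer (zpowers f : Set G) :=
    cen_zpowers f ▸ centralizer_le_normalizer _
  by_contra hne
  have h7 : Nat.card (centralizer ({f} : Set G)) = 35 := by
    have := Nat.le_of_dvd (by norm_num) h1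
    generalize Nat.card (centralizer ({f} : Set G)) = c at *
    interval_cases c <;> simp_all
  have h8 : d = 1 := by
    have := Nat.le_of_dvd (by norm_num) hd
    rw [h5, h7, hG] at h6
    unfold Nat.ModEq at h4
    interval_cases d <;> omega
  rw [h8, mul_one] at h5
  obtain ⟨K, hK, h9⟩ := burnside hf h25 (eq_of_le_of_card_ge hle h5.le).ge
  rcases hs.eq_bot_or_eq_top_of_normal K hK with h | h
  · rw [h, card_bot, hG] at h9
    omega
  · rw [h, card_top, hG] at h9
    omega

theorem cen_seven (hs : IsSimpleGroup G) (hG : Nat.card G = 20160)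
    (hc : ∀ t : G, orderOf t = 2 → IsPGroup 2 (centralizer ({t} : Set G)))
    (h3 : ∀ x : G, orderOf x = 3 → ∀ g : G, g * x = x * g → g ^ 3 = 1) {g : G}
    (hg : orderOf g = 7) : Nat.card (centralizer ({g} : Set G)) = 7 ∧
      Nat.card (normalizer (zpowers g : Set G)) = 21 := by
  have : Fact (Nat.Prime 7) := ⟨by norm_num⟩
  have h1 := cen_dvd hG hc h3 (Or.inr hg)
  have h2 := orderOf_dvd_cen g
  rw [hg] at h2
  have h5 : ¬ 5 ∣ Nat.card (centralizer ({g} : Set G)) := fun h => by
    obtain ⟨f, hf, ho⟩ := exists_mem_orderOf (by norm_num) h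
    have h1 := orderOf_dvd_natCard (⟨g, mem_centralizer_singleton_iff.2
      (mem_centralizer_singleton_iff.1 hf).symm⟩ : centralizer ({f} : Set G))
    rw [orderOf_mk, hg, cen_five hs hG hc h3 ho] at h1
    norm_num at h1
  have h7 : Nat.card (centralizer ({g} : Set G)) = 7 := by
    have := Nat.le_of_dvd (by norm_num) h1
    generalize Nat.card (centralizer ({g} : Set G)) = c at *
    interval_cases c <;> simp_all
  refine ⟨h7, ?_⟩
  have h4 := index_modEq hg (by rw [hG]; norm_num)
  obtain ⟨d, hd, h5⟩ := card_norm hg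
  have h6 := (normalizer (zpowers g : Set G)).card_mul_index
  have := Nat.le_of_dvd (by norm_num) hd
  rw [h5, h7, hG] at h6
  rw [h5, h7]
  unfold Nat.ModEq at h4
  interval_cases d <;> omega

theorem exists_y {g : G} (hg : orderOf g = 7) (h7 : Nat.card (centralizer ({g} : Set G)) = 7)
    (h21 : Nat.card (normalizer (zpowers g : Set G)) = 21) :
    ∃ y ∈ normalizer (zpowers g : Set G), orderOf y = 3 ∧ y * g = g ^ 2 * y := by
  classical
  obtain ⟨y, hy, ho⟩ := exists_mem_orderOf Nat.prime_three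
    (H := normalizer (zpowers g : Set G)) (by rw [h21]; norm_num)
  have h1 := (mem_normalizer_iff.1 hy g).1 (mem_zpowers g)
  rw [mem_zpowers_iff_mem_range_orderOf, Finset.mem_image, hg] at h1
  obtain ⟨k, hk, e⟩ := h1
  rw [Finset.mem_range] at hk
  have s1 : SemiconjBy y g (g ^ k) := by rw [SemiconjBy, e]; group
  have s2 : SemiconjBy (y * y) g ((g ^ k) ^ k) := (s1.pow_right k).mul_left s1
  have s3 : SemiconjBy (y * (y * y)) g (((g ^ k) ^ k) ^ k) :=
    (by simpa only [← pow_mul, mul_comm] using s1.pow_right (k * k) :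
      SemiconjBy y ((g ^ k) ^ k) (((g ^ k) ^ k) ^ k)).mul_left s2
  have hy3 : y * (y * y) = 1 := by rw [← pow_three, ← ho, pow_orderOf_eq_one]
  rw [hy3, SemiconjBy, one_mul, mul_one, ← pow_mul, ← pow_mul] at s3
  have h2 : 1 ≡ k * (k * k) [MOD 7] := by
    rw [← hg, ← pow_eq_pow_iff_modEq, pow_one]; exact s3
  have h3 : k = 1 ∨ k = 2 ∨ k = 4 := by
    unfold Nat.ModEq at h2
    interval_cases k <;> omega
  rcases h3 with rfl | rfl | rfl
  · have h1 := orderOf_dvd_natCard (⟨y, mem_centralizer_singleton_iff.2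
      (by simpa [SemiconjBy] using s1)⟩ : centralizer ({g} : Set G))
    rw [orderOf_mk, ho, h7] at h1
    norm_num at h1
  · exact ⟨y, hy, ho, s1⟩
  · refine ⟨y * y, mul_mem hy hy, ?_, ?_⟩
    · rw [← pow_two, Nat.Coprime.orderOf_pow (by rw [ho]; norm_num), ho]
    · have : (g ^ 4) ^ 4 = g ^ 2 := by
        rw [← pow_mul, pow_eq_pow_iff_modEq, hg]; decide
      rw [← this]
      exact s2

end Orders

section Module

variable {X A : Type u} [Group X] [Group A]

theorem Fx_mul {ρ : X →* MulAut A} {x y : X} {a : A} (hx : a ∈ Fx ρ x) (hy : a ∈ Fx ρ y) :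
    a ∈ Fx ρ (x * y) := by
  rw [mem_Fx] at *
  rw [map_mul, MulAut.mul_apply, hy, hx]

theorem Fx_pow {ρ : X →* MulAut A} {x : X} {a : A} (hx : a ∈ Fx ρ x) (n : ℕ) :
    a ∈ Fx ρ (x ^ n) := by
  induction n with
  | zero => rw [mem_Fx, pow_zero, map_one]; rfl
  | succ n ih => rw [pow_succ]; exact Fx_mul ih hx

theorem norm_mem {A : Type u} [CommGroup A] (ρ : X →* MulAut A) {u : X} {n : ℕ} (hu : u ^ n = 1)
    (b : A) : ∏ i ∈ Finset.range n, ρ (u ^ i) b ∈ Fx ρ u := by
  rw [mem_Fx, map_prod]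
  have h1 := Finset.prod_range_succ (fun i => ρ (u ^ i) b) n
  have h2 := Finset.prod_range_succ' (fun i => ρ (u ^ i) b) n
  rw [h1, hu, pow_zero] at h2
  rw [mul_right_cancel h2]
  refine Finset.prod_congr rfl fun i _ => ?_
  rw [pow_succ', map_mul, MulAut.mul_apply]

theorem not_le_Fx [Finite X] [Finite A] {ρ : X →* MulAut A} (h : Mod0 ρ) {g y : X}
    (hg : orderOf g = 7) (hy : orderOf y = 3) (e : y * g = g ^ 2 * y) :
    ¬ Fx ρ g ≤ Fx ρ y := by
  intro hle
  have : Fact (Nat.Prime 7) := ⟨by norm_num⟩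
  have hg7 : g ^ 7 = 1 := by rw [← hg, pow_orderOf_eq_one]
  let : CommGroup A := { (inferInstance : Group A) with
    mul_comm := fun a b => by
      have h1 : ∀ c : A, c⁻¹ = c := fun c => inv_eq_of_mul_eq_one_right (h.ea c)
      rw [← h1 (a * b), mul_inv_rev, h1, h1] }
  have h4 : 4 ≤ Nat.card (Fx ρ g) := by
    have h1 := card_modEq (ρ g) (p := 7) fun b => by
      rw [← hom_coe_pow (fun k : X => (ρ k : A → A)) (by rw [map_one]; rfl)
        (fun a b => by rw [map_mul]; rfl), hg7, map_one]; rfl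
    have h2 : Nat.card {b // ρ g b = b} = Nat.card (Fx ρ g) := rfl
    rw [h.card, h2] at h1
    unfold Nat.ModEq at h1
    omega
  have s1 : SemiconjBy y g (g ^ 2) := e
  have hsq : ∀ i : ℕ, (g ^ i * y) ^ 2 = (g ^ 3) ^ i * y ^ 2 := fun i => by
    have := (s1.pow_right i).eq
    calc (g ^ i * y) ^ 2 = g ^ i * (y * g ^ i) * y := by rw [pow_two]; group
      _ = (g ^ 3) ^ i * y ^ 2 := by rw [this, pow_two y]; group
  have hord : ∀ i : ℕ, orderOf (g ^ i * y) = 3 := fun i => by
    have := (s1.pow_right i).eq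
    rw [← hy]
    refine SemiconjBy.orderOf_eq (g ^ i) ?_
    rw [SemiconjBy, this]
    group
  have hFx : ∀ i : ℕ, Fx ρ g = Fx ρ (g ^ i * y) := fun i =>
    eq_of_le_of_card_ge (fun a ha => Fx_mul (Fx_pow ha i) (hle ha)) (by
      rw [h.fix _ (hord i)]; exact h4)
  have hall : ∀ a : A, a ∈ Fx ρ g := fun a => by
    have h1 : ∏ i ∈ Finset.range 7, (a * ρ (g ^ i) (ρ y a) * ρ ((g ^ 3) ^ i) (ρ (y ^ 2) a)) ∈
        Fx ρ g := by
      refine Subgroup.prod_mem _ fun i _ => ?_
      have := norm_mem ρ (u := g ^ i * y) (n := 3) (by rw [← hord i, pow_orderOf_eq_one]) a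
      rw [Finset.prod_range_succ, Finset.prod_range_succ, Finset.prod_range_one, pow_zero, pow_one,
        hsq, map_one, map_mul, map_mul, ← hFx i] at this
      exact this
    rw [Finset.prod_mul_distrib, Finset.prod_mul_distrib, Finset.prod_const, Finset.card_range]
      at h1
    have h2 := norm_mem ρ hg7 (ρ y a)
    have h3 := Fx_pow (norm_mem ρ (u := g ^ 3) (n := 7)
      (by rw [← pow_mul, mul_comm, pow_mul, hg7, one_pow]) (ρ (y ^ 2) a)) 5
    have h5 : (g ^ 3) ^ 5 = g := by
      rw [← pow_mul, show 3 * 5 = 7 * 2 + 1 by norm_num, pow_succ, pow_mul, hg7, one_pow, one_mul]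
    rw [h5] at h3
    have h6 := (mul_mem_cancel_right h2).1 ((mul_mem_cancel_right h3).1 h1)
    have h7 : a ^ 7 = a := by
      rw [show 7 = 2 * 3 + 1 by norm_num, pow_succ, pow_mul, pow_two, h.ea, one_pow, one_mul]
    rwa [h7] at h6
  have h1 : g = 1 := h.inj (by rw [map_one]; exact MulEquiv.ext hall)
  rw [h1, orderOf_one] at hg
  norm_num at hg

end Module

/-- L34. -/
theorem l34 : L34Stmt.{u} := by
  intro L A _ _ _ _ ρ h hs hG hc
  have : Fact (Nat.Prime 7) := ⟨by norm_num⟩
  obtain ⟨g, hg⟩ := exists_prime_orderOf_dvd_card' (G := L) 7 (by rw [hG]; norm_num)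
  obtain ⟨h7, h21⟩ := cen_seven hs hG hc h.c3 hg
  obtain ⟨y, hyN, hy, e⟩ := exists_y hg h7 h21
  obtain ⟨v, hvg, hvy⟩ := SetLike.not_le_iff_exists.1 (not_le_Fx h hg hy e)
  have hv1 : v ≠ 1 := fun h0 => hvy (h0 ▸ one_mem _)
  let Y : Subgroup L := (MulAction.stabilizer (MulAut A) v).comap ρ
  have hY : ∀ k, k ∈ Y ↔ ρ k v = v := fun k => Iff.rfl
  have hidx : Y.index ≤ 256 := by
    rw [← h.card]
    refine index_le_of Y (fun k => ρ k v) fun a b e => ?_
    rw [hY, map_mul, MulAut.mul_apply, ← e, ← MulAut.mul_apply, ← map_mul, inv_mul_cancel, map_one]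
    rfl
  have hcY := Y.card_mul_index
  let g' : Y := ⟨g, hvg⟩
  have hg' : orderOf g' = 7 := by rw [← hg]; exact (orderOf_mk g hvg)
  have hM : Y ⊓ normalizer (zpowers g : Set L) = zpowers g := by
    have h1 : zpowers g ≤ Y ⊓ normalizer (zpowers g : Set L) :=
      le_inf (zpowers_le.2 hvg) le_normalizer
    have h2 := card_dvd_of_le h1
    have h3 := card_dvd_of_le (inf_le_right : Y ⊓ normalizer (zpowers g : Set L) ≤ _)
    have h4 : Nat.card (Y ⊓ normalizer (zpowers g : Set L) : Subgroup L) ≠ 21 := fun h4 => by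
      have := eq_of_le_of_card_ge (inf_le_right : Y ⊓ normalizer (zpowers g : Set L) ≤ _)
        (by rw [h4, h21])
      rw [← this] at hyN
      exact hvy hyN.1
    refine (eq_of_le_of_card_ge h1 ?_).symm
    rw [Nat.card_zpowers, hg] at *
    rw [h21] at h3
    have := Nat.le_of_dvd (by norm_num) h3
    generalize Nat.card (Y ⊓ normalizer (zpowers g : Set L) : Subgroup L) = c at *
    interval_cases c <;> simp_all
  have hN : normalizer (zpowers g' : Set Y) ≤ centralizer {g'} := fun n hn => by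
    have h1 : (n : L) ∈ Y ⊓ normalizer (zpowers g : Set L) := by
      refine ⟨n.2, mem_normalizer_fintype fun a ha => ?_⟩
      obtain ⟨k, rfl⟩ := ha
      obtain ⟨j, hj⟩ := (mem_normalizer_iff.1 hn (g' ^ k)).1 (zpow_mem (mem_zpowers _) k)
      exact ⟨j, by simpa [g'] using congrArg Subtype.val hj⟩
    rw [hM] at h1
    exact zpowers_le_cen g' (mem_zpowers_coe h1)
  have h49 : ¬ 7 * 7 ∣ Nat.card Y := fun h0 => by
    have := h0.trans (card_subgroup_dvd_card Y)
    rw [hG] at this
    norm_num at this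
  obtain ⟨K, hKn, hK⟩ := burnside hg' h49 hN
  have h3 : ¬ 3 ∣ Nat.card K := fun h0 => by
    obtain ⟨x, hx, ho⟩ := exists_mem_orderOf Nat.prime_three h0
    have h1 := class_bound hK hx
    have ho' : orderOf (x : L) = 3 := by rw [orderOf_coe, ho]
    have h2 : centralizer ({x} : Set Y) ≤ zpowers x := fun z hz => by
      have hz' : (z : L) * x = x * z := congrArg Subtype.val (mem_centralizer_singleton_iff.1 hz)
      refine mem_zpowers_coe (by_contra fun hn => hv1 ?_)
      have : Fact (Nat.Prime 3) := ⟨Nat.prime_three⟩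
      exact h.fix9 x z ho' (orderOf_eq_prime (h.c3 x ho' z hz') fun h0 => hn (h0 ▸ one_mem _))
        hz'.symm hn v x.2 z.2
    have h3 := card_le_of_le h2
    rw [Nat.card_zpowers, ho] at h3
    omega
  have h5 : ¬ 5 ∣ Nat.card K := fun h0 => by
    obtain ⟨x, hx, ho⟩ := exists_mem_orderOf (by norm_num) h0
    have h1 := class_bound hK hx
    have ho' : orderOf (x : L) = 5 := by rw [orderOf_coe, ho]
    have h2 : Nat.card (centralizer ({x} : Set Y)) ≤ Nat.card (centralizer ({(x : L)} : Set L)) :=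
      Nat.card_le_card_of_injective (fun z => ⟨z.1.1, mem_centralizer_singleton_iff.2
        (congrArg Subtype.val (mem_centralizer_singleton_iff.1 z.2))⟩)
        fun a b e => Subtype.ext (Subtype.ext (Subtype.mk.inj e))
    rw [cen_five hs hG hc h.c3 ho'] at h2
    omega
  have hd : Nat.card K ∣ 64 := by
    have h1 : Nat.card K * 7 ∣ 3 ^ 2 * (5 * 64) * 7 := by
      rw [hK]
      exact (card_subgroup_dvd_card Y).trans (by rw [hG]; norm_num)
    exact ((((by norm_num : Nat.Prime 5).coprime_iff_not_dvd.2 h5).symm).dvd_of_dvd_mul_left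
      ((((Nat.prime_three.coprime_iff_not_dvd.2 h3).symm).pow_right 2).dvd_of_dvd_mul_left
        (Nat.dvd_of_mul_dvd_mul_right (by norm_num) h1)))
  have hm := card_modEq_one (g := g') (p := 7) (by rw [← hg', pow_orderOf_eq_one]) K
    (fun b hb => hKn.conj_mem b hb g') fun b hb e => by
      have h1 := (orderOf_dvd_natCard (⟨b, hb⟩ : K)).trans hd
      have h2 := orderOf_dvd_natCard (⟨b.1, mem_centralizer_singleton_iff.2
        (congrArg Subtype.val e).symm⟩ : centralizer ({g} : Set L))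
      rw [orderOf_mk] at h1 h2
      rw [h7, orderOf_coe] at h2
      exact orderOf_eq_one_iff.1 (Nat.eq_one_of_dvd_coprimes (by norm_num) h1 h2)
  have h64 : Nat.card K = 64 := by
    have h1 := Nat.mul_le_mul_left (Nat.card Y) hidx
    rw [hcY, ← hK, hG] at h1
    have := Nat.le_of_dvd (by norm_num) hd
    unfold Nat.ModEq at hm
    generalize Nat.card K = c at *
    interval_cases c <;> omega
  refine no_448 hs hG hc hg h7 (K := K.map Y.subtype) (by rw [card_subtype, h64]) ?_
  rintro _ ⟨b, hb, rfl⟩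
  exact ⟨_, hKn.conj_mem b hb g', rfl⟩

theorem eqns_C3L34 : True := by
  have := @Zc.eq_1.{0}
  trivial

end Cfsg.Agent.H13.C3L34
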