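import Cfsg.Agent.H11.CyLp

/-! Project CY, chapter LP, piece N3n: a mixed element generates a self-normalising subgroup of `K`. -/

set_option autoImplicit false

namespace Cfsg.Agent.H13.CyN3n

open Subgroup Cfsg.Agent.H11.Cy Cfsg.Agent.H11.Cy.Lp
open Cfsg.Agent.H11.EL (Nm Ct C1 cj Ex)

theorem cj_pow {G : Type} [Group G] {g x : G} {i : ℤ} (h : g * x * g⁻¹ = x ^ i) (m : ℕ) :
    g ^ m * x * (g ^ m)⁻¹ = x ^ i ^ m := by
  induction m with
  | zero => simp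
  | succ m ih =>
    rw [pow_succ', show g * g ^ m * x * (g * g ^ m)⁻¹ = g * (g ^ m * x * (g ^ m)⁻¹) * g⁻¹ by group, ih,
      ← conj_zpow, h, ← zpow_mul, pow_succ']

theorem zp_iff {G : Type} [Group G] {x : G} {p : ℕ} (h : orderOf x = p) {i j : ℤ} :
    x ^ i = x ^ j ↔ (i : ZMod p) = j := by
  rw [zpow_eq_zpow_iff_modEq, h, ZMod.intCast_eq_intCast_iff]

theorem dv (p : ℕ) (z : ℤ) (n : ℕ) : (p : ℤ) ∣ z ^ n - 1 ↔ (z : ZMod p) ^ n = 1 := by
  rw [← sub_eq_zero]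
  have := ZMod.intCast_zmod_eq_zero_iff_dvd (z ^ n - 1) p
  push_cast at this
  exact this.symm

theorem fin {p d N : ℕ} [Fact p.Prime] (hd : 2 * d + 1 = p) (hN : Odd N) {y z : ZMod p}
    (hy : y ^ N = 1) (hz : ∀ n, z ^ n = 1 ↔ d ∣ n) : y = 1 ∨ (y ^ 2 ≠ 1 ∧ ∃ j : ℕ, z ^ j = y) := by
  have p2 := (Fact.out : p.Prime).two_le
  have key : ∀ w : ZMod p, w ^ N = 1 → w ^ 2 = 1 → w = 1 := fun w h1 h2 => by
    obtain ⟨m, rfl⟩ := hN
    rwa [pow_succ, pow_mul, h2, one_pow, one_mul] at h1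
  by_cases h : y = 1
  · exact .inl h
  refine .inr ⟨fun c => h (key y hy c), ?_⟩
  have y0 : y ≠ 0 := by
    rintro rfl
    rw [zero_pow hN.pos.ne'] at hy
    exact zero_ne_one hy
  have yd : y ^ d = 1 := key _ (by rw [← pow_mul, mul_comm, pow_mul, hy, one_pow]) (by
    rw [← pow_mul, show d * 2 = p - 1 by omega]; exact ZMod.pow_card_sub_one_eq_one y0)
  have : NeZero d := ⟨by omega⟩
  obtain ⟨j, -, hj⟩ := (⟨(hz d).2 dvd_rfl, fun n => (hz n).1⟩ : IsPrimitiveRoot z d).eq_pow_of_pow_eq_one yd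
  exact ⟨j, hj⟩

theorem n3n : N3nStmt := by
  intro G _ _ Ω _ _ p A st x y h odd k ⟨kK, k1, z, hz, kN⟩ n nK nN
  have : Fact p.Prime := ⟨st.pp⟩
  have xy := h.xy
  obtain ⟨f, s, lc⟩ := h.lc x y xy
  obtain ⟨ok, ⟨a, aA, a1, ka1, kaK⟩, ck⟩ := h.mix x y z xy hz k kK k1 kN
  have cm : ∀ c ∈ Kl A x y, ∀ w ∈ Fl A x y, Commute c w := fun c hc w hw =>
    (mem_centralizer_iff.1 hc w hw).symm
  have oa : orderOf a = p := by
    have := (A x).orderOf_dvd_natCard aA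
    rw [st.card] at this
    exact ((Nat.dvd_prime st.pp).1 this).resolve_left (by rwa [orderOf_eq_one_iff])
  obtain ⟨i, hi⟩ := mem_zpowers_iff.1 ((mem_normalizer_iff.1 nN k).1 (mem_zpowers k))
  obtain ⟨e, he, e2⟩ := lc.fe
  have iN : (i : ZMod p) ^ Nat.card (Kl A x y) = 1 := by
    have h1 := cj_pow hi.symm (Nat.card (Kl A x y))
    rw [orderOf_dvd_iff_pow_eq_one.1 ((Kl A x y).orderOf_dvd_natCard nK), one_mul, inv_one,
      mul_one] at h1
    have h2 := (zp_iff ok).1 ((zpow_one k).trans h1)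
    rw [Int.cast_pow, Int.cast_one] at h2
    exact h2.symm
  rcases fin lc.fo odd iN (fun m => (dv p e m).symm.trans (e2 m)) with h1 | ⟨h2, j, hj⟩
  · refine ck n nK (mul_inv_eq_iff_eq_mul.1 ?_)
    rw [← hi, (zp_iff ok (j := 1)).2 (by simpa using h1), zpow_one]
  · exfalso
    have la := h.la x y xy
    have nH : n ∈ Hs G x y :=
      ⟨(h.mc.ep.kfix x y xy n).1 nK x la.mx, (h.mc.ep.kfix x y xy n).1 nK y la.my⟩
    have ex : Ex (n * f ^ j) (A x) (e ^ j) := fun w hw => by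
      rw [show n * f ^ j * w * (n * f ^ j)⁻¹ = n * (f ^ j * w * (f ^ j)⁻¹) * n⁻¹ by group,
        cj_pow (he w hw), (cm n nK _ (zpow_mem (mem_sup_left hw) _)).eq, mul_inv_cancel_right]
    refine h.five x y z xy hz (n * f ^ j) (mul_mem nH (pow_mem lc.fH _))
      ⟨_, ex, by rw [dv, Int.cast_pow, hj]; exact h2⟩
      (h.tiN x z (fun e => hz (e ▸ la.mx)) _ kaK ka1 _ ?_)
    have gk : n * f ^ j * k * (n * f ^ j)⁻¹ = k ^ i := by
      rw [hi, mul_assoc n, ← (cm k kK _ (pow_mem lc.fL j)).eq]; group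
    rw [show n * f ^ j * (k * a) * (n * f ^ j)⁻¹ = n * f ^ j * k * (n * f ^ j)⁻¹ *
      (n * f ^ j * a * (n * f ^ j)⁻¹) by group, gk, ex a aA,
      (zp_iff oa (j := i)).2 (by rw [Int.cast_pow, hj]), ← (cm k kK a (mem_sup_left aA)).mul_zpow]
    exact zpow_mem kaK i

end Cfsg.Agent.H13.CyN3n
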