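import Cfsg.Agent.H53.DgDefs

/-!
Project DG, piece RK3: the Eichler group is transitive on singular points and on the two kinds
of pairs of points.
-/

set_option autoImplicit false

namespace Cfsg.Agent.H13.DgRk3

open Module Cfsg.Agent.H26 Cfsg.Agent.H26.PForm Cfsg.Agent.H78 Cfsg.Agent.H53.Dg

variable {F V : Type} [Field F] [AddCommGroup V] [Module F V] {P : PForm F V}

/-- One Eichler transformation with centre `z` moves `x` to the point of `x'`. -/
theorem move_centre {z x x' : V} (hz : P.Sing z) (hx : P.Sing x) (hx' : P.Sing x')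
    (h : P.f x z ≠ 0) (h' : P.f x' z ≠ 0) :
    ∃ g ∈ P.E, g x ∈ F ∙ x' ∧ g z = z ∧
      ∀ s, P.f s z = 0 → P.f s x = 0 → P.f s x' = 0 → g s = s := by
  obtain ⟨hev, hm⟩ := exists_eich_map hz (hx.smul (P.f x z)⁻¹) (hx'.smul (P.f x' z)⁻¹)
    (f_smul_inv_left h) (f_smul_inv_left h')
  refine ⟨hev.equiv, hev.equiv_mem_E, ?_, hev.eich_self, fun s h1 h2 h3 => ?_⟩
  · rw [← Submodule.smul_mem_iff _ (inv_ne_zero h), ← map_smul, EV.equiv_apply, hm]
    exact Submodule.smul_mem _ _ (Submodule.mem_span_singleton_self _)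
  · rw [EV.equiv_apply]
    exact P.eich_apply_of_orth₂ _ h1 (by
      rw [f_sub_right, f_smul_right, f_smul_right, h2, h3, mul_zero, mul_zero, sub_zero])

variable [FiniteDimensional F V]

/-- A third point not orthogonal to two non-orthogonal points. -/
theorem exists_third {S : Submodule F V} {x x' : V} (hxT : x ∈ P.perp S) (hx'T : x' ∈ P.perp S)
    (hx : P.Sing x) (hx' : P.Sing x') (h : P.f x x' ≠ 0)
    (hd : P.Λ = ⊤ ∨ (P.Λ = ⊥ ∧ 2 * finrank F S + 2 < finrank F V)) :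
    ∃ z ∈ P.perp S, P.Sing z ∧ P.f x z ≠ 0 ∧ P.f x' z ≠ 0 := by
  have key : ∃ u ∈ P.perp S, ∃ ν, ν ≠ 0 ∧ P.f u x = 0 ∧ P.EV x' u ν := by
    rcases hd with hd | ⟨hd, hdim⟩
    · exact ⟨0, Submodule.zero_mem _, 1, one_ne_zero, P.f_zero_left _,
        EV.of_mem hx' (by rw [hd]; trivial)⟩
    by_contra hc
    push Not at hc
    set T := P.perp ((S ⊔ F ∙ x) ⊔ F ∙ x') with hT
    have hmem : ∀ u ∈ T, u ∈ P.perp S ∧ P.f u x = 0 ∧ P.f u x' = 0 := fun u hu => by
      rw [hT, mem_perp_sup_span, mem_perp_sup_span] at hu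
      exact ⟨hu.1.1, hu.1.2, hu.2⟩
    have h0 : ∀ u ∈ T, P.h u = 0 := fun u hu => by
      by_contra hne
      obtain ⟨a, b, c⟩ := hmem u hu
      exact hc u a _ hne b (EV.of_h hx' c)
    have h1 : T ≤ P.perp T := fun u hu v hv => by
      have := P.h_add u v
      rw [hd, AddSubgroup.mem_bot, h0 _ (T.add_mem hu hv), h0 u hu, h0 v hv] at this
      linear_combination -this
    rw [hT, perp_perp, ← hT] at h1
    have h2 : T ≤ S := fun u hu => by
      by_contra hne
      obtain ⟨-, b, c⟩ := hmem u hu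
      exact notMem_sup_pair hxT hx'T hx hx' h hne b c (h1 hu)
    have h3 := P.finrank_perp ((S ⊔ F ∙ x) ⊔ F ∙ x')
    have h4 := finrank_sup_span_le (S ⊔ F ∙ x) x'
    have h5 := finrank_sup_span_le S x
    have h6 : finrank F T ≤ finrank F S := Submodule.finrank_mono h2
    rw [← hT] at h3
    omega
  obtain ⟨u, huT, ν, hν, hux, hev⟩ := key
  refine ⟨_, EV.eich_mem hx'T huT hxT, hev.sing_eich hx, f_symm_ne ?_, f_symm_ne ?_⟩
  · rw [eich_apply, f_sub_left, P.f_add_left, P.f_smul_left, P.f_smul_left, hx.f_self, hux,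
      f_symm_zero hux]
    simp [P.ε_ne_zero, hν, h, f_symm_ne h]
  · rw [hev.f_eich_left]; exact h

/-- Transitivity on the points of `S^⊥ / S`. -/
theorem move {S : Submodule F V} {x x' : V} (hxT : x ∈ P.perp S) (hx'T : x' ∈ P.perp S)
    (hxS : x ∉ S) (hx'S : x' ∉ S) (hx : P.Sing x) (hx' : P.Sing x')
    (hd : P.f x x' = 0 ∨ P.Λ = ⊤ ∨ (P.Λ = ⊥ ∧ 2 * finrank F S + 2 < finrank F V)) :
    ∃ g ∈ P.E, g x ∈ F ∙ x' ∧ ∀ s ∈ S, g s = s := by
  have : ∃ z ∈ P.perp S, P.Sing z ∧ P.f x z ≠ 0 ∧ P.f x' z ≠ 0 := by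
    by_cases h : P.f x x' = 0
    · exact exists_sing_ne_ne hxT hxS hx'S hx (f_symm_zero h)
    · exact exists_third hxT hx'T hx hx' h (hd.resolve_left h)
  obtain ⟨z, hzT, hz, h1, h2⟩ := this
  obtain ⟨g, hg, h3, -, h4⟩ := move_centre hz hx hx' h1 h2
  exact ⟨g, hg, h3, fun s hs =>
    h4 s (f_of_mem_perp' hzT hs) (f_of_mem_perp' hxT hs) (f_of_mem_perp' hx'T hs)⟩

omit [FiniteDimensional F V] in
/-- A reflection exchanges two non-orthogonal points of an orthogonal space. -/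
theorem exists_refl (hσ : ∀ a, P.σ a = a) (hε : P.ε = 1) (hΛ : P.Λ = ⊥) {y y' : V}
    (hy : P.Sing y) (hy' : P.Sing y') (h : P.f y y' ≠ 0) :
    ∃ g ∈ P.isom, g y ∈ F ∙ y' ∧ ∀ s, P.f s y = 0 → P.f s y' = 0 → g s = s := by
  have hsymm : ∀ a b, P.f b a = P.f a b := fun a b => by rw [P.herm, hσ, hε, one_mul]
  have hadd : ∀ a b, P.h (a + b) = P.h a + P.h b + P.f a b := fun a b => by
    have := P.h_add a b
    rw [hΛ, AddSubgroup.mem_bot] at this
    linear_combination this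
  have hsmul : ∀ (c : F) a, P.h (c • a) = c * c * P.h a := fun c a => by
    have := P.h_smul c a
    rw [hΛ, AddSubgroup.mem_bot, hσ] at this
    linear_combination this
  have hy0 : P.h y = 0 := by simpa [Sing, hΛ] using hy
  have hy0' : P.h y' = 0 := by simpa [Sing, hΛ] using hy'
  set v := y + y' with hv
  have hhv : P.h v = P.f y y' := by rw [hv, hadd, hy0, hy0', add_zero, zero_add]
  have hv0 : P.h v ≠ 0 := by rwa [hhv]
  have hvv : P.f v v = 2 * P.h v := by rw [P.f_self, hσ, hε]; ring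
  have h2 : ((P.h v)⁻¹ • P.fL v : Module.Dual F V) v = 2 := by
    rw [LinearMap.smul_apply, fL_apply, hvv, smul_eq_mul]; field_simp
  have happ : ∀ a, Module.reflection h2 a = a - ((P.h v)⁻¹ * P.f a v) • v := fun a => by
    rw [Module.reflection_apply, LinearMap.smul_apply, fL_apply, smul_eq_mul]
  refine ⟨Module.reflection h2, ⟨fun a b => ?_, fun a => ?_⟩, ?_, fun s h1 h3 => ?_⟩
  · rw [happ, happ]
    simp only [f_sub_left, f_sub_right, P.f_smul_left, f_smul_right, hσ, hvv, hsymm b v]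
    field_simp
    ring
  · rw [happ, hΛ, AddSubgroup.mem_bot, sub_eq_add_neg a, ← neg_smul, hadd, hsmul, f_smul_right, hσ]
    field_simp
    ring
  · rw [happ, hhv, hv, f_add_right, hy.f_self, zero_add, inv_mul_cancel₀ h, one_smul,
      sub_add_cancel_left]
    exact Submodule.neg_mem _ (Submodule.mem_span_singleton_self _)
  · rw [happ, hv, f_add_right, h1, h3, add_zero, mul_zero, zero_smul, sub_zero]

/-- RK3 without hypotheses. -/
theorem rk3' : Rk3Stmt := by
  intro F V _ _ _ _ _ P sp w e hT hw x y x' y' hx hy hx' hy' hx0 hx0'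
  have : FiniteDimensional F V := Module.Finite.of_finite
  have hd : ∀ k, k = 0 ∨ (k = 1 ∧ (1 ≤ e ∨ 3 ≤ w)) →
      P.Λ = ⊤ ∨ (P.Λ = ⊥ ∧ 2 * k + 2 < finrank F V) := fun k hk => by
    cases sp
    · obtain ⟨-, h1, -, h2⟩ := hT.orth rfl
      exact Or.inr ⟨h1, by omega⟩
    · exact Or.inl (hT.symp rfl).2.1
  obtain ⟨g, hg, hgx, -⟩ := move (P := P) (S := ⊥) (x := x) (x' := x')
    (by rw [perp_bot]; trivial) (by rw [perp_bot]; trivial) (by simpa using hx0)
    (by simpa using hx0') hx hx' (Or.inr (hd _ (Or.inl (finrank_bot F V))))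
  have hgi := E_le_isom hg
  obtain ⟨c, hc⟩ := Submodule.mem_span_singleton.1 hgx
  have hc0 : c ≠ 0 := by
    rintro rfl
    rw [zero_smul, eq_comm, LinearEquiv.map_eq_zero_iff] at hc
    exact hx0 hc
  have hf : c * P.f x' (g y) = P.f x y := by rw [← P.f_smul_left, hc, isom_f hgi]
  have hfix : ∀ k : V ≃ₗ[F] V, k x' = x' → (k * g) x ∈ F ∙ x' := fun k hk => by
    rw [mul_apply', ← hc, map_smul, hk, hc]; exact hgx
  refine ⟨⟨g, hg, hgx⟩, fun h h' => ?_, fun h h' hyx hyx' => ?_⟩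
  · have h1 : P.f x' (g y) ≠ 0 := fun h0 => h (by rw [← hf, h0, mul_zero])
    obtain ⟨k, hk, h2, h3, -⟩ := move_centre hx' (hy.map hgi) hy' (f_symm_ne h1) (f_symm_ne h')
    exact ⟨k * g, mul_mem hk hg, hfix k h3, h2⟩
  · have h1 : P.f x' (g y) = 0 := by
      rw [h] at hf
      exact (mul_eq_zero.1 hf).resolve_left hc0
    have h2 : g y ∉ F ∙ x' := fun hm => by
      obtain ⟨d, hd⟩ := Submodule.mem_span_singleton.1 hm
      refine hyx (Submodule.mem_span_singleton.2 ⟨d * c⁻¹, g.injective ?_⟩)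
      rw [map_smul, ← hc, smul_smul, inv_mul_cancel_right₀ hc0, hd]
    by_cases hE : P.f (g y) y' = 0 ∨ 1 ≤ e ∨ 3 ≤ w
    · obtain ⟨k, hk, h3, h4⟩ := move (S := F ∙ x') (mem_perp_span_singleton.2 (f_symm_zero h1))
        (mem_perp_span_singleton.2 (f_symm_zero h')) h2 hyx' (hy.map hgi) hy'
        (hE.imp_right fun hE => hd _ (Or.inr ⟨finrank_span_singleton hx0', hE⟩))
      exact ⟨k * g, E_le_isom (mul_mem hk hg), fun _ => mul_mem hk hg,
        hfix k (h4 _ (Submodule.mem_span_singleton_self _)), h3⟩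
    · rw [not_or] at hE
      have hsp : sp = false := by
        cases sp
        · rfl
        · exact absurd (Or.inl (hT.symp rfl).2.2.1.ge) hE.2
      obtain ⟨hε, hΛ, -⟩ := hT.orth hsp
      obtain ⟨k, hk, h3, h4⟩ := exists_refl hT.sig hε hΛ (hy.map hgi) hy' hE.1
      exact ⟨k * g, mul_mem hk hgi, fun h => absurd h hE.2, hfix k (h4 _ h1 h'), h3⟩

/-- RK3 in the form of the notes. -/
theorem rk3 (_ : WittStmt) : Rk3Stmt := rk3'

end Cfsg.Agent.H13.DgRk3
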