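import Cfsg.Agent.H6.E82Defs

/-! Project E82: a Frobenius semilinear map permutes the composition factors. -/

set_option autoImplicit false
set_option linter.unusedSectionVars false

namespace Cfsg.Agent.H13.E82Fr

open Cfsg.Agent.H6.E82 Module Finset

section
variable {W : Type} [AddCommGroup W] [Module K W] [FiniteDimensional K W]
  {ρ : SL →* Module.End K W} {fr : W → W}

theorem fr_zero (h : Semi ρ fr) : fr 0 = 0 := by
  have := h.1 0 0
  rw [add_zero] at this
  exact left_eq_add.1 this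

theorem fr_sum (h : Semi ρ fr) {ι : Type} (s : Finset ι) (v : ι → W) :
    fr (∑ i ∈ s, v i) = ∑ i ∈ s, fr (v i) := by
  classical
  induction s using Finset.induction_on with
  | empty => simpa using fr_zero h
  | insert a s ha ih => rw [sum_insert ha, sum_insert ha, h.1, ih]

theorem dm_le (h : Semi ρ fr) {U : Submodule K W} (hU : ∀ v ∈ U, fr v ∈ U) (g : SL) (η : K) :
    dm ρ g η U ≤ dm ρ g (η ^ 2) U := by
  set S := (U ⊓ Module.End.eigenspace (ρ g) η : Submodule K W)
  set T := (U ⊓ Module.End.eigenspace (ρ g) (η ^ 2) : Submodule K W)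
  let b := Module.finBasis K S
  have hm : ∀ v : S, fr v ∈ T := fun v => ⟨hU _ v.2.1, Module.End.mem_eigenspace_iff.2 (by
    rw [← h.2.2.2, Module.End.mem_eigenspace_iff.1 v.2.2, h.2.1])⟩
  have li : LinearIndependent K fun i => (⟨fr (b i), hm _⟩ : T) := by
    refine Fintype.linearIndependent_iff.2 fun c hc => ?_
    choose d hd using fun i => IsAlgClosed.exists_pow_nat_eq (c i) (show 0 < 2 by decide)
    have e : fr (∑ i, d i • (b i : W)) = fr 0 := by
      rw [fr_sum h, fr_zero h]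
      have := congrArg Subtype.val hc
      simp only [AddSubmonoidClass.coe_finsetSum, SetLike.val_smul, ZeroMemClass.coe_zero] at this
      rw [← this]
      exact sum_congr rfl fun i _ => by rw [h.2.1, hd]
    have e2 : ∑ i, d i • b i = 0 := Subtype.ext (by
      simpa only [AddSubmonoidClass.coe_finsetSum, SetLike.val_smul, ZeroMemClass.coe_zero]
        using h.2.2.1 e)
    intro i
    rw [← hd, Fintype.linearIndependent_iff.1 b.linearIndependent d e2 i]
    simp
  have := li.fintype_card_le_finrank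
  rwa [Fintype.card_fin] at this

theorem dm_le_pow (h : Semi ρ fr) {U : Submodule K W} (hU : ∀ v ∈ U, fr v ∈ U) (g : SL) (η : K)
    (k : ℕ) : dm ρ g η U ≤ dm ρ g (η ^ 2 ^ k) U := by
  induction k with
  | zero => simp
  | succ k ih => exact ih.trans (by rw [pow_succ, pow_mul]; exact dm_le h hU g _)

theorem dm_sq (h : Semi ρ fr) {U : Submodule K W} (hU : ∀ v ∈ U, fr v ∈ U) (g : SL) {η : K}
    (e : η ^ 4095 = 1) : dm ρ g (η ^ 2) U = dm ρ g η U := by
  refine le_antisymm ?_ (dm_le h hU g η)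
  have := dm_le_pow h hU g (η ^ 2) 11
  rwa [← pow_mul, show 2 * 2 ^ 11 = 4095 + 1 by norm_num, pow_succ η 4095, e, one_mul] at this

theorem dm_two (h : Semi ρ fr) {U : Submodule K W} (hU : ∀ v ∈ U, fr v ∈ U) (g : SL) {ζ : K}
    {n : ℕ} (hn : n ∣ 4095) (e : ζ ^ n = 1) (k : ℕ) :
    dm ρ g (ζ ^ (2 * k % n)) U = dm ρ g (ζ ^ k) U := by
  obtain ⟨c, hc⟩ := hn
  rw [← pow_eq_pow_mod _ e, mul_comm, pow_mul]
  refine dm_sq h hU g ?_
  rw [← pow_mul, mul_comm, pow_mul, hc, pow_mul, e, one_pow, one_pow]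

end

theorem ee65 : ∀ r < 64, ∀ e < 65, EE 65 (sg r) (2 * e % 65) = EE 65 r e := by decide +kernel

theorem ee63 : ∀ r < 64, ∀ e < 63, EE 63 (sg r) (2 * e % 63) = EE 63 r e := by decide +kernel

theorem sg1 : ∀ r < 64, sg r / 2 + 32 * (sg r % 2) = r := by decide

theorem sg2 : ∀ r < 64, sg (r / 2 + 32 * (r % 2)) = r := by decide

theorem se_sg (m : ℕ → ℕ) {n e : ℕ} (h : ∀ r < 64, EE n (sg r) (2 * e % n) = EE n r e) :
    SE (fun r => m (sg r)) n e = SE m n (2 * e % n) := by
  unfold SE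
  refine sum_nbij' sg (fun r => r / 2 + 32 * (r % 2)) ?_ ?_ ?_ ?_ fun r hr => ?_
  · intro r hr
    simp only [mem_range, sg] at hr ⊢
    omega
  · intro r hr
    simp only [mem_range] at hr ⊢
    omega
  · exact fun r hr => sg1 r (mem_range.1 hr)
  · exact fun r hr => sg2 r (mem_range.1 hr)
  · rw [h r (mem_range.1 hr)]

theorem frS (par : ParStmt) (uni : UniStmt) : FrStmt := by
  intro p W _ _ _ ρ fr h U m hU hm
  have h1 : (p.θ : K) ^ 65 = 1 := by
    rw [← Units.val_pow_eq_pow_val, p.hθ.pow_eq_one, Units.val_one]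
  have h2 : (lam p : K) ^ 63 = 1 := by
    rw [← Units.val_pow_eq_pow_val, (par.2 p).2.2.2.1.pow_eq_one, Units.val_one]
  refine uni (fun r => m (sg r)) m (fun e he => ?_) fun e he => ?_
  · rw [se_sg m fun r hr => ee65 r hr e he, ← hm.1 _ (Nat.mod_lt _ (by decide)), ← hm.1 e he]
    exact dm_two h hU _ (by decide) h1 e
  · rw [se_sg m fun r hr => ee63 r hr e he, ← hm.2 _ (Nat.mod_lt _ (by decide)), ← hm.2 e he]
    exact dm_two h hU _ (by decide) h2 e

end Cfsg.Agent.H13.E82Fr
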