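import Mathlib
import Cfsg.Agent.H11.ElDefs

/-! The exponents on two subgroups of order eleven generating `J₁`. -/

set_option autoImplicit false

namespace Cfsg.Agent.H13.ElJm

open Subgroup Cfsg.Agent.H11.EL

universe u

theorem perm5 {f h : Equiv.Perm (Fin 5)} (hf : orderOf f = 5) (c : Commute h f) :
    h ∈ zpowers f := by
  have hc : f.IsCycle := Equiv.Perm.isCycle_of_prime_order'' (by simp; norm_num) (by simpa using hf)
  have hs : f.support = Finset.univ := Finset.eq_univ_of_card _ (by rw [← hc.orderOf, hf]; simp)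
  have hm : ∀ x, f x ≠ x := fun x => Equiv.Perm.mem_support.1 (hs ▸ Finset.mem_univ x)
  obtain ⟨k, hk⟩ := hc.exists_zpow_eq (hm 0) (hm (h 0))
  refine ⟨k, Equiv.ext fun x => ?_⟩
  obtain ⟨n, rfl⟩ := hc.exists_zpow_eq (hm 0) (hm x)
  show (f ^ k * f ^ n) 0 = (h * f ^ n) 0
  rw [(c.zpow_right n).eq, ← zpow_add, add_comm, zpow_add, Equiv.Perm.mul_apply, hk]
  rfl

variable {G : Type u} [Group G]

theorem a5 {U : Subgroup G} (e : U ≃* alternatingGroup (Fin 5)) {f h : G} (fU : f ∈ U) (hU : h ∈ U)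
    (hf : orderOf f = 5) (c : Commute h f) : h ∈ zpowers f := by
  let φ : U →* Equiv.Perm (Fin 5) := (alternatingGroup (Fin 5)).subtype.comp e.toMonoidHom
  have hφ : Function.Injective φ := Subtype.val_injective.comp e.injective
  obtain ⟨k, hk⟩ := perm5 (f := φ ⟨f, fU⟩) (h := φ ⟨h, hU⟩)
    (by rw [orderOf_injective φ hφ, ← Subgroup.orderOf_coe]; exact hf)
    (Commute.map (show Commute (⟨h, hU⟩ : U) ⟨f, fU⟩ from Subtype.ext c) φ)
  have := hφ (show φ (⟨f, fU⟩ ^ k) = _ from (map_zpow φ _ k).trans hk)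
  exact ⟨k, congrArg Subtype.val this⟩

theorem ex_mul {a g h : G} {i j : ℤ} (hg : g * a * g⁻¹ = a ^ i) (hh : h * a * h⁻¹ = a ^ j) :
    g * h * a * (g * h)⁻¹ = a ^ (i * j) := by
  calc _ = g * (h * a * h⁻¹) * g⁻¹ := by group
    _ = _ := by rw [hh, ← conj_zpow, hg, ← zpow_mul]

theorem ex_pow {a g : G} {i : ℤ} (hg : g * a * g⁻¹ = a ^ i) (n : ℕ) :
    g ^ n * a * (g ^ n)⁻¹ = a ^ (i ^ n) := by
  induction n with
  | zero => simp
  | succ n ih => rw [pow_succ, pow_succ]; exact ex_mul ih hg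

theorem zp {a : G} {p : ℕ} (ha : orderOf a = p) {i j : ℤ} :
    a ^ i = a ^ j ↔ (i : ZMod p) = j := by
  rw [zpow_eq_zpow_iff_modEq, ha, ZMod.intCast_eq_intCast_iff]

theorem core [Finite G] {J : Subgroup G} (Γ : JA J) {a h y j : G} (a11 : orderOf a = 11)
    (aJ : a ∈ J) (hJ : h ∈ J) (yJ : y ∈ J) (jJ : j ∈ J) (hA : h * a * h⁻¹ ∉ zpowers a)
    (yy : y * y = 1) (ya : y * a * y⁻¹ = a ^ (-1 : ℤ)) (hy : Commute h y) (jy : Commute j y)
    {i i' : ℤ} (ja : j * a * j⁻¹ = a ^ i) (jb : h⁻¹ * j * h * a * (h⁻¹ * j * h)⁻¹ = a ^ i') :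
    (i : ZMod 11) * i' = 1 := by
  have pA : zpowers a ∈ Pts J := ⟨zpowers_le.2 aJ, by rw [Nat.card_zpowers, a11]⟩
  have one : ∀ c ∈ J, Commute c y → ∀ e : ℤ, c * a * c⁻¹ = a ^ e → (e : ZMod 11) = 1 → c = 1 := by
    intro c cJ cy e h1 h2
    have h3 : c * a * c⁻¹ = a := by rw [h1, ← zpow_one a, ← zpow_mul, zp a11]; simp [h2]
    have h4 : Commute c a := by rw [mul_inv_eq_iff_eq_mul] at h3; exact h3
    obtain ⟨k, rfl⟩ := Γ.cent _ pA c cJ (mem_centralizer_iff.2 (by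
      rintro _ ⟨k, rfl⟩; exact (h4.zpow_right k).symm.eq))
    have h5 : y * a ^ k * y⁻¹ = a ^ k := by rw [← cy.eq, mul_inv_cancel_right]
    rw [← conj_zpow, ya, ← zpow_mul, zp a11] at h5
    show a ^ k = 1
    rw [← zpow_zero a, zp a11]
    push_cast at h5 ⊢
    revert h5; generalize (k : ZMod 11) = x; revert x; decide
  have uq : ∀ c ∈ J, Commute c y → ∀ e : ℤ, c * a * c⁻¹ = a ^ e → ∀ d ∈ J, Commute d y →
      ∀ e' : ℤ, d * a * d⁻¹ = a ^ e' → (e : ZMod 11) = e' → c = d := by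
    intro c cJ cy e h1 d dJ dy e' h2 h3
    have h4 : c * a * c⁻¹ = d * a * d⁻¹ := by rw [h1, h2, zp a11, h3]
    have := one (d⁻¹ * c) (J.mul_mem (J.inv_mem dJ) cJ) (dy.inv_left.mul_left cy) 1 (by
      calc _ = d⁻¹ * (c * a * c⁻¹) * d := by group
        _ = _ := by rw [h4]; group) (by simp)
    rwa [inv_mul_eq_one, eq_comm] at this
  have nz : ∀ c : G, ∀ e : ℤ, c * a * c⁻¹ = a ^ e → (e : ZMod 11) ≠ 0 := by
    intro c e h1 h2
    have h3 : a ^ e = a ^ (0 : ℤ) := by rw [zp a11, h2]; simp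
    rw [h3, zpow_zero, mul_inv_eq_one, mul_eq_left] at h1
    rw [h1, orderOf_one] at a11; omega
  have j1J : h⁻¹ * j * h ∈ J := J.mul_mem (J.mul_mem (J.inv_mem hJ) jJ) hJ
  have j1y : Commute (h⁻¹ * j * h) y := (hy.inv_left.mul_left jy).mul_left hy
  have hyh : h⁻¹ * y * h = y := by rw [mul_assoc, ← hy.eq, inv_mul_cancel_left]
  have cjp : ∀ n : ℕ, (h⁻¹ * j * h) ^ n = h⁻¹ * j ^ n * h := fun n => by
    simpa using conj_pow (a := h⁻¹) (b := j) (i := n)
  have i0 := nz _ _ ja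
  have i0' := nz _ _ jb
  have pw : ∀ n : ℕ, (((i : ZMod 11) ^ n = 1 → (i' : ZMod 11) ^ n = 1) ∧
      ((i : ZMod 11) ^ n = -1 → (i' : ZMod 11) ^ n = -1)) := fun n => by
    have h1 := ex_pow jb n
    rw [cjp] at h1
    constructor
    · intro h2
      rw [one _ (J.pow_mem jJ n) (jy.pow_left n) _ (ex_pow ja n) (by simpa using h2)] at h1
      have : a ^ (1 : ℤ) = a ^ (i' ^ n) := by rw [← h1]; group
      simpa using ((zp a11).1 this).symm
    · intro h2
      rw [uq _ (J.pow_mem jJ n) (jy.pow_left n) _ (ex_pow ja n) y yJ (Commute.refl y) _ ya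
        (by simpa using h2), hyh, ya] at h1
      simpa using ((zp a11).1 h1).symm
  by_cases hi : (i : ZMod 11) ^ 2 = 1
  · have h1 := pw 1
    revert h1 hi; generalize (i : ZMod 11) = x; generalize (i' : ZMod 11) = x'
    revert x x'; decide
  obtain ⟨n, hn⟩ : ∃ n : Fin 5, (i' : ZMod 11) ^ 2 = ((i : ZMod 11) ^ 2) ^ (n : ℕ) := by
    revert hi i0 i0'; generalize (i : ZMod 11) = x; generalize (i' : ZMod 11) = x'
    revert x x'; decide
  have fJ := J.pow_mem jJ 2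
  have fy := jy.pow_left 2
  have fa := ex_pow ja 2
  have fb := ex_pow jb 2
  rw [cjp] at fb
  have f1y : Commute (h⁻¹ * j ^ 2 * h) y := cjp 2 ▸ j1y.pow_left 2
  have f1J : h⁻¹ * j ^ 2 * h ∈ J := cjp 2 ▸ J.pow_mem j1J 2
  generalize j ^ 2 = f at fJ fy fa fb f1y f1J
  have e1 : h⁻¹ * f * h = f ^ (n : ℕ) :=
    uq _ f1J f1y _ fb _ (J.pow_mem fJ n) (fy.pow_left n) _ (ex_pow fa n) (by simpa using hn)
  have f5 : orderOf f = 5 := by
    have := Fact.mk (show Nat.Prime 5 by norm_num)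
    refine orderOf_eq_prime (one _ (J.pow_mem fJ 5) (fy.pow_left 5) _ (ex_pow fa 5) ?_) fun e => hi ?_
    · push_cast
      revert i0; generalize (i : ZMod 11) = x; revert x; decide
    · have : a ^ (1 : ℤ) = a ^ (i ^ 2) := by rw [← fa, e]; group
      simpa using ((zp a11).1 this).symm
  have y2 : orderOf y = 2 := orderOf_eq_prime (by rw [pow_two, yy]) fun e => by
    have : a ^ (1 : ℤ) = a ^ (-1 : ℤ) := by rw [← ya, e]; group
    exact absurd ((zp a11).1 this) (by decide)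
  obtain ⟨U, UJ, -, ⟨e⟩, hU⟩ := Γ.cy y yJ y2
  have fU : f ∈ U := (hU f fJ fy).elim id fun h1 => by
    have h2 := U.pow_mem h1 6
    rwa [fy.mul_pow, show y ^ 6 = (y * y) ^ 3 by rw [← pow_two, ← pow_mul], yy, one_pow, mul_one, pow_succ,
      show f ^ 5 = 1 by rw [← f5, pow_orderOf_eq_one], one_mul] at h2
  obtain ⟨k, kU, e2, e3⟩ : ∃ k ∈ U, k⁻¹ * f * k = f ^ (n : ℕ) ∧ k * a * k⁻¹ ∉ zpowers a := by
    rcases hU h hJ hy with h1 | h1
    · exact ⟨h, h1, e1, hA⟩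
    · refine ⟨h * y, h1, ?_, fun h2 => hA ?_⟩
      · calc _ = y⁻¹ * (h⁻¹ * f * h) * y := by group
          _ = _ := by rw [e1, mul_assoc, (fy.pow_left n).eq, inv_mul_cancel_left]
      · have h3 : h * y * a * (h * y)⁻¹ = (h * a * h⁻¹)⁻¹ := by
          calc _ = h * (y * a * y⁻¹) * h⁻¹ := by group
            _ = _ := by rw [ya]; group
        rwa [h3, inv_mem_iff] at h2
  have k30 : k⁻¹ ^ 30 = 1 := by
    have h1 : k⁻¹ ^ 60 = 1 := by
      have h2 := U.orderOf_dvd_natCard (U.inv_mem kU)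
      rw [Nat.card_congr e.toEquiv, nat_card_alternatingGroup] at h2
      exact orderOf_dvd_iff_pow_eq_one.1 (by simpa [Nat.factorial] using h2)
    have := Γ.no4 (k⁻¹ ^ 15) (J.pow_mem (UJ (U.inv_mem kU)) 15) (by rw [← pow_mul]; exact h1)
    rwa [← pow_mul] at this
  have e4 : k⁻¹ * f * k⁻¹⁻¹ = f ^ ((n : ℕ) : ℤ) := by rw [inv_inv, e2, zpow_natCast]
  have e5 := ex_pow e4 30
  have e6 : f ^ (1 : ℤ) = f ^ (((n : ℕ) : ℤ) ^ 30) := by rw [← e5, k30]; group
  rw [zp f5] at e6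
  have n1 : n ≠ 1 := by
    rintro rfl
    have c : Commute k f := by
      have : k⁻¹ * f * k = f := by simpa using e2
      rw [mul_assoc, inv_mul_eq_iff_eq_mul] at this
      exact this.symm
    obtain ⟨m, rfl⟩ := a5 e fU kU f5 c
    have hN : f ∈ normalizer ((zpowers a : Subgroup G) : Set G) :=
      mem_normalizer_fintype (S := ((zpowers a : Subgroup G) : Set G)) (by
        rintro _ ⟨r, rfl⟩
        show f * a ^ r * f⁻¹ ∈ zpowers a
        rw [← conj_zpow, fa]; exact zpow_mem (zpow_mem (mem_zpowers a) _) r)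
    exact e3 ((mem_normalizer_iff.1 (zpow_mem hN m) a).1 (mem_zpowers a))
  have n4 : n = 4 := by
    push_cast at e6
    revert e6 n1; generalize n = x; revert x; decide
  subst n4
  have h5 := pw 5
  revert h5 hn i0; generalize (i : ZMod 11) = x; generalize (i' : ZMod 11) = x'
  revert x x'; decide

theorem jm (hJA : JAStmt.{u}) : JMStmt.{u} := by
  intro G _ _ A B y0 g cA cB AB hJ yy0 yA0 yE0 yB0 gy gA gB i i' gi gi'
  have Γ := hJA _ hJ
  set J := A ⊔ B with hJd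
  have nJ : ∀ c ∈ Nm A, c ∈ Nm B → ∃ l ∈ J, ∀ x ∈ J, l * x * l⁻¹ = c * x * c⁻¹ := by
    intro c h1 h2
    obtain ⟨k, hk, l, hl, rfl⟩ := Γ.inn c (by
      rw [← cj_eq_iff] at h1 h2 ⊢; rw [hJd, cj_sup, h1, h2])
    refine ⟨l, hl, fun x hx => ?_⟩
    have := mem_centralizer_iff.1 hk _ (J.mul_mem (J.mul_mem hl hx) (J.inv_mem hl))
    calc _ = l * x * l⁻¹ * k * k⁻¹ := by group
      _ = _ := by rw [this]; group
  have ctr : ∀ c ∈ J, (∀ x ∈ J, c * x * c⁻¹ = x) → c = 1 := fun c hc h =>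
    Γ.ctr c hc (mem_centralizer_iff.2 fun x hx => by
      have := h x hx; rw [mul_inv_eq_iff_eq_mul] at this; exact this.symm)
  obtain ⟨y, yJ, hy⟩ := nJ y0 yA0 yB0
  obtain ⟨j, jJ, hj⟩ := nJ g gA gB
  have cm : ∀ l ∈ J, ∀ x ∈ J, l * x * l⁻¹ ∈ J := fun l hl x hx =>
    J.mul_mem (J.mul_mem hl hx) (J.inv_mem hl)
  have yy : y * y = 1 := ctr _ (J.mul_mem yJ yJ) fun x hx => by
    calc _ = y * (y * x * y⁻¹) * y⁻¹ := by group
      _ = y0 * y0 * x * (y0 * y0)⁻¹ := by rw [hy _ (cm _ yJ _ hx), hy _ hx]; group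
      _ = _ := by rw [yy0]; group
  have jy : Commute j y := by
    have : (y * j)⁻¹ * (j * y) = 1 := ctr _ (J.mul_mem (J.inv_mem (J.mul_mem yJ jJ))
      (J.mul_mem jJ yJ)) fun x hx => by
      have h1 : j * (y * x * y⁻¹) * j⁻¹ = y * (j * x * j⁻¹) * y⁻¹ := by
        rw [hj _ (cm _ yJ _ hx), hy _ (cm _ jJ _ hx), hy _ hx, hj _ hx]
        calc _ = g * y0 * x * (g * y0)⁻¹ := by group
          _ = _ := by rw [gy.eq]; group
      calc _ = (y * j)⁻¹ * (j * (y * x * y⁻¹) * j⁻¹) * (y * j) := by group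
        _ = _ := by rw [h1]; group
    rw [inv_mul_eq_one] at this
    exact this.symm
  have AJ : A ≤ J := le_sup_left
  have BJ : B ≤ J := le_sup_right
  obtain ⟨a0, a11⟩ := @exists_prime_orderOf_dvd_card' A _ _ 11 ⟨by norm_num⟩ (by rw [cA])
  obtain ⟨a, aA⟩ := a0
  rw [← Subgroup.orderOf_coe] at a11
  replace a11 : orderOf a = 11 := a11
  have eA : zpowers a = A := eq_of_le_of_card_ge (zpowers_le.2 aA) (by rw [Nat.card_zpowers, a11, cA])
  obtain ⟨h, hJ', hh⟩ := Γ.tr A ⟨AJ, cA⟩ B ⟨BJ, cB⟩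
  have bB : h * a * h⁻¹ ∈ B := by rw [← hh, mem_cj]; simpa [mul_assoc] using aA
  have ya : y * a * y⁻¹ = a ^ (-1 : ℤ) := by rw [hy _ (AJ aA)]; exact yE0 a aA
  obtain ⟨e, he⟩ : ∃ e : ℤ, h⁻¹ * y * h * a * (h⁻¹ * y * h)⁻¹ = a ^ e := by
    have h1 : y * (h * a * h⁻¹) * y⁻¹ ∈ B := by
      rw [hy _ (BJ bB)]; exact (mem_normalizer_iff.1 yB0 _).1 bB
    rw [← hh, mem_cj, ← eA] at h1
    obtain ⟨e, he⟩ := h1
    exact ⟨e, by rw [show a ^ e = _ from he]; group⟩
  have cent : ∀ c ∈ J, c * a * c⁻¹ = a → c ∈ zpowers a := fun c hc h1 => by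
    rw [mul_inv_eq_iff_eq_mul] at h1
    rw [eA]
    refine Γ.cent A ⟨AJ, cA⟩ c hc (mem_centralizer_iff.2 ?_)
    rw [← eA]
    rintro _ ⟨k, rfl⟩
    exact (Commute.zpow_right (show Commute c a from h1) k).symm.eq
  have y1J : h⁻¹ * y * h ∈ J := J.mul_mem (J.mul_mem (J.inv_mem hJ') yJ) hJ'
  have y11 : h⁻¹ * y * h * (h⁻¹ * y * h) = 1 := by
    calc _ = h⁻¹ * (y * y) * h := by group
      _ = _ := by rw [yy]; group
  have e1 : (e : ZMod 11) = -1 := by
    have h1 := ex_mul he he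
    have h2 : a ^ (1 : ℤ) = a ^ (e * e) := by rw [← h1, y11]; group
    rw [zp a11] at h2
    have h3 : (e : ZMod 11) ≠ 1 := fun h3 => by
      obtain ⟨k, hk⟩ := cent _ y1J (by rw [he, ← zpow_one a, ← zpow_mul, zp a11]; simp [h3])
      have hk' : a ^ k = h⁻¹ * y * h := hk
      have h4 : a ^ (k + k) = a ^ (0 : ℤ) := by rw [zpow_add, hk', y11, zpow_zero]
      have h5 : a ^ k = a ^ (0 : ℤ) := by
        rw [zp a11] at h4 ⊢
        push_cast at h4 ⊢
        revert h4; generalize (k : ZMod 11) = x; revert x; decide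
      have h6 : y = 1 := by
        calc y = h * (h⁻¹ * y * h) * h⁻¹ := by group
          _ = 1 := by rw [← hk', h5]; group
      have : a ^ (1 : ℤ) = a ^ (-1 : ℤ) := by rw [← ya, h6]; group
      exact absurd ((zp a11).1 this) (by decide)
    push_cast at h2
    revert h2 h3; generalize (e : ZMod 11) = x; revert x; decide
  obtain ⟨m, hm⟩ := cent _ (J.mul_mem yJ y1J) (by
    rw [ex_mul ya he, ← zpow_one a, ← zpow_mul, zp a11]; simp [e1])
  have hm' : a ^ m = y * (h⁻¹ * y * h) := hm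
  have yi : y⁻¹ = y := inv_eq_of_mul_eq_one_right yy
  have hc : Commute (h * a ^ (-(6 * m))) y := by
    have h1 : y * a ^ (6 * m) * y⁻¹ = a ^ (-(6 * m)) := by rw [← conj_zpow, ya]; group
    have h2 : a ^ m = a ^ (6 * m + 6 * m) := by
      rw [zp a11]; push_cast; generalize (m : ZMod 11) = x; revert x; decide
    have h3 : y * h = h * (y * a ^ m) := by
      rw [hm', ← mul_assoc y, yy]; group
    show h * a ^ (-(6 * m)) * y = y * (h * a ^ (-(6 * m)))
    rw [← mul_assoc y, h3, h2]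
    calc _ = h * (y * a ^ (6 * m) * y⁻¹) * y := by rw [h1]
      _ = _ := by group
  have hb : h * a ^ (-(6 * m)) * a * (h * a ^ (-(6 * m)))⁻¹ = h * a * h⁻¹ := by group
  have key := core Γ a11 (AJ aA) (J.mul_mem hJ' (J.zpow_mem (AJ aA) (-(6 * m)))) yJ jJ
    (fun h1 => AB (by
      rw [hb, eA] at h1
      have o : orderOf (h * a * h⁻¹) = 11 := ((MulAut.conj h).orderOf_eq a).trans a11
      rw [← eq_of_le_of_card_ge (zpowers_le.2 h1) (by rw [Nat.card_zpowers, o, cA]),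
        ← eq_of_le_of_card_ge (zpowers_le.2 bB) (by rw [Nat.card_zpowers, o, cB])]))
    yy ya hc jy (i := i) (i' := i') (by rw [hj _ (AJ aA)]; exact gi a aA) (by
      generalize h * a ^ (-(6 * m)) = h' at hb
      have h1 := gi' _ bB
      rw [← hj _ (BJ bB), ← hb, conj_zpow] at h1
      calc _ = h'⁻¹ * (j * (h' * a * h'⁻¹) * j⁻¹) * h' := by group
        _ = _ := by rw [h1]; group)
  have := (ZMod.intCast_zmod_eq_zero_iff_dvd (i * i' - 1) 11).1 (by push_cast; rw [key, sub_self])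
  exact_mod_cast this

end Cfsg.Agent.H13.ElJm
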