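import Cfsg.Agent.H98.GbL

/-! Project GB: the hook removal rule in the Hall algebra. -/

set_option autoImplicit false
open Cfsg Finset

namespace Cfsg.Agent.H13.GbHook

open Cfsg.Agent.H98.GB

universe u

section alg
variable {A : Type*} [CommRing A] [Algebra ℂ A] {D : A →ₗ[ℂ] A}
  (hD : ∀ x z, D (x * z) = D x * z + x * D z)
include hD

theorem D_one : D 1 = 0 := by
  have := hD 1 1
  rw [mul_one, mul_one, one_mul] at this
  exact left_eq_add.1 this

theorem D_prod {ι : Type*} (s : Finset ι) (f : ι → A) (h : ∀ i ∈ s, D (f i) = 0) :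
    D (∏ i ∈ s, f i) = 0 :=
  Finset.prod_induction f (fun x => D x = 0) (fun a b ha hb => by rw [hD, ha, hb]; simp)
    (D_one hD) h

theorem D_mon0 (P : ℕ → A) (μ : Multiset ℕ) (h : ∀ r ∈ μ, D (P r) = 0) :
    D (μ.map P).prod = 0 :=
  Multiset.prod_induction (fun x => D x = 0) _ (fun a b ha hb => by rw [hD, ha, hb]; simp)
    (D_one hD) fun a ha => by
      obtain ⟨r, hr, rfl⟩ := Multiset.mem_map.1 ha
      exact h r hr

theorem D_mon (P : ℕ → A) (k : ℕ) (μ : Multiset ℕ)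
    (h : ∀ r ∈ μ, D (P r) = if r = k then (k : ℂ) • 1 else 0) :
    D (μ.map P).prod = ((k : ℂ) * μ.count k) • ((μ.erase k).map P).prod := by
  induction μ using Multiset.induction_on with
  | empty => simpa using D_one hD
  | cons a ν ih =>
    rw [Multiset.map_cons, Multiset.prod_cons, hD, h a (Multiset.mem_cons_self _ _),
      ih fun r hr => h r (Multiset.mem_cons_of_mem hr)]
    by_cases e : a = k
    · subst e
      rw [if_pos rfl, Multiset.erase_cons_head, Multiset.count_cons_self, smul_mul_assoc, one_mul,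
        mul_smul_comm, Nat.cast_succ, mul_add, mul_one, add_smul, add_comm]
      congr 1
      by_cases m : a ∈ ν
      · conv_rhs => rw [← Multiset.cons_erase m, Multiset.map_cons, Multiset.prod_cons]
        rw [Multiset.cons_erase m]
      · rw [Multiset.count_eq_zero_of_notMem m]
        simp
    · rw [if_neg e, zero_mul, zero_add, Multiset.erase_cons_tail _ e, Multiset.map_cons,
        Multiset.prod_cons, Multiset.count_cons_of_ne (Ne.symm e), mul_smul_comm]

omit hD in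
theorem le_of_mem {n r : ℕ} {μ : Multiset ℕ} (hμ : μ ∈ H19.Par n) (hr : r ∈ μ) : 0 < r ∧ r ≤ n := by
  obtain ⟨h1, h2⟩ := H19.mem_Par.1 hμ
  exact ⟨h2 r hr, h1 ▸ Multiset.single_le_sum (fun _ _ => Nat.zero_le _) r hr⟩

theorem D_sch0 (N : ℕ) (P : ℕ → A) (S : Finset ℕ)
    (h : ∀ r, 0 < r → r ≤ H19.wtS S → D (P r) = 0) : D (sch N P S) = 0 := by
  rw [sch, map_sum]
  refine sum_eq_zero fun μ hμ => ?_
  rw [map_smul, D_mon0 hD P μ fun r hr => h r (le_of_mem hμ hr).1 (le_of_mem hμ hr).2, smul_zero]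

omit hD in
theorem wt_move {S : Finset ℕ} {k x : ℕ} (hx : x ∈ S.filter fun x => k ≤ x ∧ x - k ∉ S) :
    H19.wtS (insert (x - k) (S.erase x)) + k = H19.wtS S := by
  obtain ⟨h1, h2, h3⟩ := mem_filter.1 hx
  have a := H19.sum_move h1 h3
  rw [H19.sum_eq_wtS, H19.sum_eq_wtS, H19.card_move h1 h3] at a
  omega

theorem D_sch {N : ℕ} (P : ℕ → A) {S : Finset ℕ} (hS : #S = N) {k : ℕ} (hk : 0 < k)
    (h : ∀ r, 0 < r → r ≤ H19.wtS S → D (P r) = if r = k then (k : ℂ) • 1 else 0) :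
    D (sch N P S) = ∑ x ∈ S.filter (fun x => k ≤ x ∧ x - k ∉ S),
      (-1 : ℂ) ^ #(S.filter fun z => x - k < z ∧ z < x) • sch N P (insert (x - k) (S.erase x)) := by
  by_cases hw : H19.wtS S < k
  · rw [D_sch0 hD N P S fun r h1 h2 => by rw [h r h1 h2, if_neg (by omega)]]
    refine (sum_eq_zero fun x hx => ?_).symm
    have := wt_move hx
    omega
  have e1 : ∑ x ∈ S.filter (fun x => k ≤ x ∧ x - k ∉ S),
      (-1 : ℂ) ^ #(S.filter fun z => x - k < z ∧ z < x) • sch N P (insert (x - k) (S.erase x)) =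
      ∑ ν ∈ H19.Par (H19.wtS S - k),
        ((H19.chiS N S (k ::ₘ ν) : ℂ) / (H19.zM ν : ℂ)) • (ν.map P).prod := by
    simp only [H19.chiS_cons hS hk, Int.cast_sum, sum_div, sum_smul]
    rw [sum_comm]
    refine sum_congr rfl fun x hx => ?_
    rw [sch, show H19.wtS (insert (x - k) (S.erase x)) = H19.wtS S - k by
      have := wt_move hx; omega, smul_sum]
    refine sum_congr rfl fun ν _ => ?_
    rw [smul_smul, Int.cast_mul, Int.cast_pow, Int.cast_neg, Int.cast_one, mul_div_assoc]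
  rw [e1, sch, map_sum, ← sum_filter_add_sum_filter_not _ fun μ => k ∈ μ,
    sum_eq_zero (s := filter (fun μ => ¬ k ∈ μ) _), add_zero]
  · refine sum_nbij' (fun μ => μ.erase k) (fun ν => k ::ₘ ν) ?_ ?_ ?_ ?_ fun μ hμ => ?_
    · intro μ hμ
      obtain ⟨h1, h2⟩ := mem_filter.1 hμ
      obtain ⟨h3, h4⟩ := H19.mem_Par.1 h1
      refine H19.mem_Par.2 ⟨?_, fun r hr => h4 r (Multiset.mem_of_mem_erase hr)⟩
      rw [← Multiset.cons_erase h2, Multiset.sum_cons] at h3
      omega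
    · intro ν hν
      obtain ⟨h3, h4⟩ := H19.mem_Par.1 hν
      refine mem_filter.2 ⟨H19.mem_Par.2 ⟨?_, fun r hr => ?_⟩, Multiset.mem_cons_self _ _⟩
      · rw [Multiset.sum_cons]
        omega
      · rcases Multiset.mem_cons.1 hr with rfl | hr
        exacts [hk, h4 r hr]
    · exact fun μ hμ => Multiset.cons_erase (mem_filter.1 hμ).2
    · exact fun ν _ => Multiset.erase_cons_head _ _
    · obtain ⟨h1, h2⟩ := mem_filter.1 hμ
      rw [map_smul, D_mon hD P k μ fun r hr => h r (le_of_mem h1 hr).1 (le_of_mem h1 hr).2,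
        smul_smul]
      obtain ⟨ν, rfl⟩ : ∃ ν, μ = k ::ₘ ν := ⟨_, (Multiset.cons_erase h2).symm⟩
      rw [Multiset.erase_cons_head, H19.zM_cons, Multiset.count_cons_self]
      congr 1
      have a1 : (k : ℂ) ≠ 0 := Nat.cast_ne_zero.2 hk.ne'
      have a2 : ((ν.count k + 1 : ℕ) : ℂ) ≠ 0 := Nat.cast_ne_zero.2 (Nat.succ_ne_zero _)
      rw [Nat.cast_mul, Nat.cast_mul, mul_comm _ (H19.zM ν : ℂ), ← div_div,
        div_mul_cancel₀ _ (mul_ne_zero a1 a2)]
  · intro μ hμ
    obtain ⟨h1, h2⟩ := mem_filter.1 hμ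
    rw [map_smul, D_mon hD P k μ fun r hr => h r (le_of_mem h1 hr).1 (le_of_mem h1 hr).2,
      Multiset.count_eq_zero_of_notMem h2]
    simp

omit hD in
theorem sL_update {Φ : Type} [Fintype Φ] [DecidableEq Φ] (N : ℕ) (P : Φ → ℕ → A)
    (Λ : Φ → Finset ℕ) (φ : Φ) (T : Finset ℕ) : sL N P (Function.update Λ φ T) =
      sch N (P φ) T * ∏ φ' ∈ univ.erase φ, sch N (P φ') (Λ φ') := by
  have e : ∀ φ' ∈ univ.erase φ, sch N (P φ') (Function.update Λ φ T φ') = sch N (P φ') (Λ φ') :=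
    fun φ' h => congrArg _ (Function.update_of_ne (ne_of_mem_erase h) _ _)
  rw [sL, ← mul_prod_erase _ _ (mem_univ φ), Function.update_self, prod_congr rfl e]

end alg

theorem hook (hF : FOCKStmt.{u}) : HOOKStmt.{u} := by
  intro F _ _ _ η H Φ _ _ dg n0 N P hS hG Λ hΛ hw φ k hk hn
  have fk := hF F η H
  have p0 := hS.pr φ k trivial hk hn
  let D : H.A →ₗ[ℂ] H.A :=
    { toFun := H.D (dg φ * k) (P φ k)
      map_add' := fk.D_add _ _
      map_smul' := fk.D_smul _ _ }
  have hD : ∀ x z, D (x * z) = D x * z + x * D z := fk.D_mul p0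
  have hP : ∀ φ' r, 0 < r → r ≤ H19.wtS (Λ φ') →
      D (P φ' r) = if φ' = φ ∧ r = k then (k : ℂ) • 1 else 0 := fun φ' r h1 h2 => by
    have h3 : dg φ' * r ≤ n0 := (Nat.mul_le_mul_left _ h2).trans
      ((single_le_sum (f := fun φ => dg φ * H19.wtS (Λ φ)) (fun _ _ => Nat.zero_le _)
        (mem_univ φ')).trans hw)
    have p1 := hS.pr φ' r trivial h1 h3
    change H.D _ _ _ = _
    rw [fk.D_pr p0 p1]
    by_cases e : dg φ * k = dg φ' * r
    · rw [e, hG φ' r φ k trivial trivial h1 hk h3 hn]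
      split_ifs with c
      · rw [c.2]
      · rw [zero_smul]
    · rw [if_neg fun c => e (by rw [c.1, c.2]), Hall.ip, p1.1 _ e]
      simp [classInner]
  change D _ = _
  rw [sL, ← mul_prod_erase _ _ (mem_univ φ), hD, D_prod hD _ _ fun φ' h => D_sch0 hD _ _ _
    fun r h1 h2 => by rw [hP φ' r h1 h2, if_neg fun c => ne_of_mem_erase h c.1], mul_zero, add_zero,
    D_sch hD (P φ) (hΛ φ) hk fun r h1 h2 => by rw [hP φ r h1 h2]; simp, sum_mul]
  exact sum_congr rfl fun x _ => by rw [sL_update, smul_mul_assoc]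

end Cfsg.Agent.H13.GbHook
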