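import Cfsg.Agent.H45.GdDefs
import Cfsg.Agent.H62.CITBasic

/-! Project CY, chapter IV, piece AL: all lines are anisotropic. -/

set_option autoImplicit false

namespace Cfsg.Agent.H13.GdAl

open Subgroup Cfsg.Agent.H11.Cy Cfsg.Agent.H45.Iv Cfsg.Agent.H45.Gd

theorem al : AlStmt := by
  intro G _ _ Ω _ _ p A h k d0 a2 x y hxy r hr hz rr
  have two : ∀ u v : Ω, ∃ Ψ, Mx A Ψ ∧ Es A Ψ ≠ ⊥ ∧ u ∈ Ψ ∧ v ∈ Ψ := by
    intro u v
    obtain ⟨Ψ, m, e, hu⟩ := d0 u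
    by_cases hv : v ∈ Ψ
    · exact ⟨Ψ, m, e, hu, hv⟩
    have huv : u ≠ v := fun c => hv (c ▸ hu)
    obtain ⟨s, hs, es⟩ := (h.ls u v huv).1.tr v (h.sk.ln u v).2
    have sz : s ∉ Zl A u v := fun c =>
      huv (((h.sk.fx u v huv s c).2.1 (h.sk.ln u v).1).symm.trans es)
    obtain ⟨Φ, mΦ, hl⟩ := k.two u v huv
    have u1 := hl (h.sk.ln u v).1
    have v1 := hl (h.sk.ln u v).2
    refine ⟨Φ, mΦ, fun c => a2 Ψ m e u hu v hv s hs sz ?_, u1, v1⟩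
    have := k.ze Φ mΦ u u1 v v1 huv ((h.ls u v huv).2.1.sq s hs)
    rwa [c, mem_bot] at this
  have o2 : pCoreOf 2 (⊤ : Subgroup G) = ⊥ :=
    h.bs.o2 _ (normalizer_eq_top_iff.1 (top_le_iff.1 (H84.le_normalizer_pCoreOf 2 ⊤)))
      (H84.isPGroup_pCoreOf 2 ⊤)
  obtain ⟨g, -, hg⟩ := H62.baer_suzuki_sq (P := ⊤) (a := r) trivial
    (by rw [o2, mem_bot]; rintro rfl; exact hz (one_mem _)) (by rw [rr]; exact one_mem _)
  obtain ⟨Ψ, m, e, h1, h2⟩ := two x (g • x)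
  have y1 : y ∈ Ψ := by
    by_contra c
    exact a2 Ψ m e x h1 y c r hr hz rr
  have gr := (h.sk.cj g x y r).2.1 hr
  have y2 : g • y ∈ Ψ := by
    by_contra c
    refine a2 Ψ m e _ h2 _ c _ gr (fun c' => hz ?_) ?_
    · have := (h.sk.cj g⁻¹ _ _ _).2.2 c'
      rwa [inv_smul_smul, inv_smul_smul, show g⁻¹ * (g * r * g⁻¹) * g⁻¹⁻¹ = r by group] at this
    · calc _ = g * (r * r) * g⁻¹ := by group
        _ = 1 := by rw [rr]; group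
  exact hg (H62.is2_of_mem (k.t2 Ψ m)
    (mul_mem ((h.sk.fle Ψ x h1 y y1).2 hr) ((h.sk.fle Ψ _ h2 _ y2).2 gr)))

end Cfsg.Agent.H13.GdAl
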