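import Cfsg.Agent.H97.JmDefs
import Cfsg.Agent.H33.J4Odd5
import Cfsg.Agent.S5563
import Cfsg.Agent.S5564
import Cfsg.Agent.S5565
import Cfsg.Agent.S5629

/-! The local data at the central involution of a group of Janko-four type. -/

set_option autoImplicit false

namespace Cfsg.Agent.H97.JM

open Subgroup H33.J4O

universe u

theorem X5.card_sub {G : Type u} [Group G] (C K : Subgroup G) :
    Nat.card (K.subgroupOf C) = Nat.card ↥(C ⊓ K) := by
  rw [← inf_subgroupOf_left]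
  exact Nat.card_congr (subgroupOfEquivOfLe inf_le_left).toEquiv

theorem X5.pw {G : Type u} [Group G] {g x : G} (h : g * x * g⁻¹ = x ^ 2) (d : ℕ) :
    g ^ d * x * (g ^ d)⁻¹ = x ^ 2 ^ d := by
  induction d with
  | zero => simp
  | succ d ih =>
    calc g ^ (d + 1) * x * (g ^ (d + 1))⁻¹ = g * (g ^ d * x * (g ^ d)⁻¹) * g⁻¹ := by
          rw [pow_succ']; group
      _ = _ := by rw [ih, ← conj_pow, h, ← pow_mul, ← pow_succ']

theorem X5.cN {G : Type u} [Group G] [Finite G] {C : Subgroup G} {x g : G} (hx : x ∈ C)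
    (hg : g ∈ C) (x11 : orderOf x = 11) (gx : g * x * g⁻¹ = x ^ 2) :
    Nat.card ↥(C ⊓ normalizer ((zpowers x : Subgroup G) : Set G)) =
      Nat.card ↥(C ⊓ centralizer ({x} : Set G)) * 10 := by
  obtain ⟨d, h1, h2, h3⟩ := card_norm (p := 11) (by norm_num) (a := (⟨x, hx⟩ : C))
    (by rw [← Subgroup.orderOf_coe]; exact x11)
  have e1 : normalizer ((zpowers (⟨x, hx⟩ : C) : Subgroup C) : Set C) =
      (normalizer ((zpowers x : Subgroup G) : Set G)).subgroupOf C := by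
    ext c
    rw [mem_subgroupOf]
    constructor
    · intro hc
      obtain ⟨k, hk⟩ := norm_mem hc (mem_zpowers _)
      exact mem_norm_zp ⟨k, by simpa using congrArg Subtype.val hk⟩
    · intro hc
      obtain ⟨k, hk⟩ := norm_mem hc (mem_zpowers _)
      exact mem_norm_zp ⟨k, Subtype.ext (by simpa using hk)⟩
  have e2 : centralizer ({(⟨x, hx⟩ : C)} : Set C) = (centralizer ({x} : Set G)).subgroupOf C := by
    ext c
    rw [mem_subgroupOf, mcs, mcs, Subtype.ext_iff]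
    rfl
  have h4 : g ^ d * x = x * g ^ d := by
    have := h3 ⟨g, hg⟩ (by
      rw [e1, mem_subgroupOf]
      exact mem_norm_zp (by rw [show ((⟨g, hg⟩ : C) : G) = g from rfl, gx]; exact npow_mem_zpowers x 2))
    simpa using congrArg Subtype.val this
  have h5 : x ^ 2 ^ d = x ^ 1 := by rw [← X5.pw gx, h4, mul_inv_cancel_right, pow_one]
  rw [pow_eq_pow_iff_modEq, x11] at h5
  have h6 : d = 10 := by
    have := Nat.le_of_dvd (by norm_num) h1
    interval_cases d <;> first | rfl | (exfalso; revert h1 h5; decide)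
  rw [e1, e2, X5.card_sub, X5.card_sub, h6] at h2
  exact h2

theorem X5.two {G : Type u} [Group G] {Q : Subgroup G} (h : Nat.card (center Q) = 2) {z c : G}
    (z1 : z ≠ 1) (zQ : z ∈ Q) (cQ : c ∈ Q) (hz : ∀ q ∈ Q, z * q = q * z)
    (hc : ∀ q ∈ Q, c * q = q * c) : c = 1 ∨ c = z := by
  obtain ⟨y, -, hy⟩ := (Nat.card_eq_two_iff' (1 : center Q)).mp h
  have m : ∀ {a : G} (aQ : a ∈ Q), (∀ q ∈ Q, a * q = q * a) → (⟨a, aQ⟩ : Q) ∈ center Q :=
    fun aQ ha => mem_center_iff.mpr fun q => Subtype.ext (ha q q.2).symm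
  refine (em (c = 1)).imp id fun c1 => ?_
  have e1 := hy ⟨_, m zQ hz⟩ fun e => z1 (congrArg (fun a : center Q => ((a : Q) : G)) e)
  have e2 := hy ⟨_, m cQ hc⟩ fun e => c1 (congrArg (fun a : center Q => ((a : Q) : G)) e)
  exact congrArg (fun a : center Q => ((a : Q) : G)) (e2.trans e1.symm)

theorem pX5 : X5.{u} := by
  intro G _ _ _ hG z hJ
  obtain ⟨card, hna⟩ := card_hna hG ⟨z, hJ⟩ (S5629.result hG z hJ)
  obtain ⟨P, hz⟩ := hJ
  obtain ⟨J, rfl, rfl⟩ := H83.J4.exists_JA hz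
  have Γ : (l11 J).Glob := glob J card (S5563.result hG _ _ hz).2.2.2.2 (S5564.result hG ⟨_, _, hz⟩)
    (fun V h1 h2 => (S5567.result hG ⟨_, _, hz⟩ V h1 h2).1)
    (fun t h1 h2 => S5569.result hG _ ⟨_, hz⟩ t h1 h2) hna
  have ez : (l11 J).z = J.z := rfl
  generalize l11 J = L at Γ ez
  generalize J.z = z at hz ez
  subst ez
  obtain ⟨O, h⟩ := L.exO
  obtain ⟨U, rfl⟩ := L11.exU h Γ
  obtain ⟨z2, hE, cE, hC, -, -, hP, -⟩ := id hz
  have Qle : twoCoreOfCentralizer L.z ≤ centralizer ({L.z} : Set G) := map_subtype_le _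
  have zQ : L.z ∈ twoCoreOfCentralizer L.z := by
    have := mem_zpowers L.z
    rw [← hP] at this
    exact this.1
  refine ⟨L.x, twoCoreOfCentralizer L.z, U, z2, Γ.cH, L.x11, L.zx.symm, Qle, ?_, cE, zQ, ?_,
    L.cardD, L.invD, ?_, h.xm, h.le, L11.norm_eq h Γ, L11.hf h, ?_⟩
  · intro c hc
    refine mem_norm_of ?_
    rintro _ ⟨a, ha, rfl⟩
    have hn : (pCore 2 ↥(centralizer ({L.z} : Set G))).Normal := inferInstance
    exact ⟨_, hn.conj_mem a ha ⟨c, hc⟩, rfl⟩
  · intro c h1 h2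
    exact X5.two hE.2 L.z_ne zQ (hC ⟨mcs.mpr h1, mem_centralizer_iff.mpr fun q hq => (h2 q hq).symm⟩)
      (fun q hq => (mcs.mp (Qle hq)).symm) h2
  · rw [X5.cN (mcs.mpr L.zx.symm) (mcs.mpr L.gz) L.x11 L.gx, L.cardD]
  · have := Fact.mk Nat.prime_three
    obtain ⟨A, hA⟩ := Sylow.exists_subgroup_card_pow_prime (G := centralizer ({L.z} : Set G)) 3
      (n := 3) (by rw [Γ.cH]; norm_num)
    obtain ⟨R, hR⟩ := exists_sylow (p := 3) (A := A.map (centralizer ({L.z} : Set G)).subtype) (k := 3)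
      (by rw [card_subtype, hA]) (by rw [Γ.card]; norm_num)
    have le : (R : Subgroup G) ≤ centralizer ({L.z} : Set G) := hR ▸ map_subtype_le _
    exact ⟨R, le, (S5565.result hG L.z ⟨_, hz⟩ R le).2.2.2.1⟩

end Cfsg.Agent.H97.JM
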