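import Cfsg.Agent.H50.L81Defs

/-! Project L81, piece G2A. -/

set_option autoImplicit false

namespace Cfsg.Agent.H13.L81G2a

open Module Finset Cfsg.Agent.H50.L81 Cfsg.Agent.H50.E83 Cfsg.Agent.H50.SL2S Cfsg.Agent.H82
open Equiv Cfsg.Lie Cfsg.Agent.H37 Cfsg.Agent.H40 Cfsg.Agent.H34 Cfsg.Agent.H29

theorem mz : ∀ a < 41, a ∉ ({0, 1, 2, 3, 5, 6, 9, 14, 15, 18, 20, 27} : Finset ℕ) →
    mm 6 (2 * a) = 0 := by decide +kernel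

theorem se (m : ℕ → ℕ) (hm : ∀ a < 41, m (2 * a) ≤ mm 6 (2 * a)) (e : ℕ) :
    SE m 40 e = m 0 * EE 40 0 e + m 2 * EE 40 2 e + m 4 * EE 40 4 e + m 6 * EE 40 6 e +
      m 10 * EE 40 10 e + m 12 * EE 40 12 e + m 18 * EE 40 18 e + m 28 * EE 40 28 e +
      m 30 * EE 40 30 e + m 36 * EE 40 36 e + m 40 * EE 40 40 e + m 54 * EE 40 54 e := by
  unfold SE
  rw [← Finset.sum_subset (s₁ := ({0, 1, 2, 3, 5, 6, 9, 14, 15, 18, 20, 27} : Finset ℕ))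
    (by decide) (fun a ha hna => by
      have h1 := hm a (mem_range.1 ha)
      rw [mz a (mem_range.1 ha) hna] at h1
      rw [Nat.le_zero.1 h1, zero_mul])]
  simp [add_assoc]

theorem ee0 : EE 40 0 0 = 1 ∧ EE 40 2 0 = 1 ∧ EE 40 4 0 = 0 ∧ EE 40 6 0 = 1 ∧ EE 40 10 0 = 0 ∧ EE 40 12 0 = 0 ∧ EE 40 18 0 = 1 ∧ EE 40 28 0 = 0 ∧ EE 40 30 0 = 0 ∧ EE 40 36 0 = 0 ∧ EE 40 40 0 = 0 ∧ EE 40 54 0 = 1 := by decide +kernel

theorem ee1 : EE 40 0 1 = 0 ∧ EE 40 2 1 = 1 ∧ EE 40 4 1 = 1 ∧ EE 40 6 1 = 0 ∧ EE 40 10 1 = 0 ∧ EE 40 12 1 = 0 ∧ EE 40 18 1 = 0 ∧ EE 40 28 1 = 0 ∧ EE 40 30 1 = 0 ∧ EE 40 36 1 = 0 ∧ EE 40 40 1 = 0 ∧ EE 40 54 1 = 0 := by decide +kernel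

theorem ee3 : EE 40 0 3 = 0 ∧ EE 40 2 3 = 0 ∧ EE 40 4 3 = 0 ∧ EE 40 6 3 = 1 ∧ EE 40 10 3 = 0 ∧ EE 40 12 3 = 1 ∧ EE 40 18 3 = 0 ∧ EE 40 28 3 = 0 ∧ EE 40 30 3 = 0 ∧ EE 40 36 3 = 0 ∧ EE 40 40 3 = 0 ∧ EE 40 54 3 = 0 := by decide +kernel

theorem ee9 : EE 40 0 9 = 0 ∧ EE 40 2 9 = 0 ∧ EE 40 4 9 = 0 ∧ EE 40 6 9 = 0 ∧ EE 40 10 9 = 0 ∧ EE 40 12 9 = 0 ∧ EE 40 18 9 = 1 ∧ EE 40 28 9 = 0 ∧ EE 40 30 9 = 0 ∧ EE 40 36 9 = 1 ∧ EE 40 40 9 = 0 ∧ EE 40 54 9 = 0 := by decide +kernel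

theorem ee27 : EE 40 0 27 = 0 ∧ EE 40 2 27 = 0 ∧ EE 40 4 27 = 0 ∧ EE 40 6 27 = 0 ∧ EE 40 10 27 = 0 ∧ EE 40 12 27 = 0 ∧ EE 40 18 27 = 0 ∧ EE 40 28 27 = 1 ∧ EE 40 30 27 = 0 ∧ EE 40 36 27 = 0 ∧ EE 40 40 27 = 0 ∧ EE 40 54 27 = 1 := by decide +kernel

theorem ee2 : EE 40 0 2 = 0 ∧ EE 40 2 2 = 0 ∧ EE 40 4 2 = 1 ∧ EE 40 6 2 = 0 ∧ EE 40 10 2 = 0 ∧ EE 40 12 2 = 0 ∧ EE 40 18 2 = 0 ∧ EE 40 28 2 = 0 ∧ EE 40 30 2 = 0 ∧ EE 40 36 2 = 0 ∧ EE 40 40 2 = 0 ∧ EE 40 54 2 = 0 := by decide +kernel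

theorem ee6 : EE 40 0 6 = 0 ∧ EE 40 2 6 = 0 ∧ EE 40 4 6 = 0 ∧ EE 40 6 6 = 0 ∧ EE 40 10 6 = 0 ∧ EE 40 12 6 = 1 ∧ EE 40 18 6 = 0 ∧ EE 40 28 6 = 0 ∧ EE 40 30 6 = 0 ∧ EE 40 36 6 = 0 ∧ EE 40 40 6 = 0 ∧ EE 40 54 6 = 0 := by decide +kernel

theorem ee18 : EE 40 0 18 = 0 ∧ EE 40 2 18 = 0 ∧ EE 40 4 18 = 0 ∧ EE 40 6 18 = 0 ∧ EE 40 10 18 = 0 ∧ EE 40 12 18 = 0 ∧ EE 40 18 18 = 0 ∧ EE 40 28 18 = 0 ∧ EE 40 30 18 = 0 ∧ EE 40 36 18 = 1 ∧ EE 40 40 18 = 0 ∧ EE 40 54 18 = 0 := by decide +kernel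

theorem ee14 : EE 40 0 14 = 0 ∧ EE 40 2 14 = 0 ∧ EE 40 4 14 = 0 ∧ EE 40 6 14 = 0 ∧ EE 40 10 14 = 0 ∧ EE 40 12 14 = 0 ∧ EE 40 18 14 = 0 ∧ EE 40 28 14 = 1 ∧ EE 40 30 14 = 0 ∧ EE 40 36 14 = 0 ∧ EE 40 40 14 = 0 ∧ EE 40 54 14 = 0 := by decide +kernel

theorem ee33 : EE 40 0 33 = 0 ∧ EE 40 2 33 = 0 ∧ EE 40 4 33 = 0 ∧ EE 40 6 33 = 0 ∧ EE 40 10 33 = 0 ∧ EE 40 12 33 = 0 ∧ EE 40 18 33 = 0 ∧ EE 40 28 33 = 0 ∧ EE 40 30 33 = 0 ∧ EE 40 36 33 = 0 ∧ EE 40 40 33 = 1 ∧ EE 40 54 33 = 0 := by decide +kernel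

theorem tab (m : ℕ → ℕ) (hm : ∀ a < 41, m (2 * a) ≤ mm 6 (2 * a)) :
    SE m 40 0 = m 0 + m 2 + m 6 + m 18 + m 54 ∧ SE m 40 1 = m 2 + m 4 ∧
    SE m 40 3 = m 6 + m 12 ∧ SE m 40 9 = m 18 + m 36 ∧ SE m 40 27 = m 54 + m 28 ∧
    SE m 40 2 = m 4 ∧ SE m 40 14 = m 28 ∧ SE m 40 33 = m 40 := by
  refine ⟨?_, ?_, ?_, ?_, ?_, ?_, ?_, ?_⟩ <;> rw [se m hm]
  · simp only [ee0]; omega
  · simp only [ee1]; omega
  · simp only [ee3]; omega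
  · simp only [ee9]; omega
  · simp only [ee27]; omega
  · simp only [ee2]; omega
  · simp only [ee14]; omega
  · simp only [ee33]; omega

theorem onto {W : Type} [AddCommGroup W] [Module K W] [FiniteDimensional K W]
    (A : Module.End K W) (S T N : Submodule K W) (hT : ∀ v ∈ S, A v ∈ T)
    (hN : ∀ v ∈ S, A v = 0 → v ∈ N) (hd : finrank K N + finrank K T ≤ finrank K S) :
    ∀ w ∈ T, ∃ v ∈ S, A v = w := by
  let f : S →ₗ[K] W := A ∘ₗ S.subtype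
  have h1 := f.finrank_range_add_finrank_ker
  have h2 : finrank K (LinearMap.ker f) ≤ finrank K N := by
    rw [← Submodule.finrank_map_subtype_eq]
    apply Submodule.finrank_mono
    rintro _ ⟨v, hv, rfl⟩
    exact hN v v.2 hv
  have h3 : LinearMap.range f ≤ T := by
    rintro _ ⟨v, rfl⟩
    exact hT v v.2
  have h4 : LinearMap.range f = T := Submodule.eq_of_le_of_finrank_le h3 (by omega)
  intro w hw
  rw [← h4] at hw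
  obtain ⟨v, rfl⟩ := hw
  exact ⟨v, v.2, rfl⟩

theorem g2a (ser : SerStmt) (mult : MultStmt) (aop : AopStmt) (zz : ZzStmt) (hw : HwStmt)
    (g1 : G1Stmt) : G2aStmt := by
  intro p W _ _ _ ρ hρ hB M M' L L' h
  obtain ⟨hL, hL', hc, h0, h4, h12, h36, h28, -⟩ := h
  obtain ⟨-, aM, aW, a40, aw, -, aI, aF, -, aww⟩ := aop p W ρ hρ
  have hI : Inv ρ M' := ((ser p W ρ hρ).2.1 M' L' hL').1
  have c0 : 28 = L.count 0 + L'.count 0 := hc 0 (by norm_num) (by decide)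
  have c4 : 8 = L.count 4 + L'.count 4 := hc 4 (by norm_num) (by decide)
  have c12 : 8 = L.count 12 + L'.count 12 := hc 12 (by norm_num) (by decide)
  have c36 : 8 = L.count 36 + L'.count 36 := hc 36 (by norm_num) (by decide)
  have c28 : 8 = L.count 28 + L'.count 28 := hc 28 (by norm_num) (by decide)
  have c40 : 1 = L.count 40 + L'.count 40 := hc 40 (by norm_num) (by decide)
  have hz : L'.count 0 ≤ L'.count 4 + L'.count 12 + L'.count 36 + L'.count 28 :=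
    zz p W ρ hρ hB M' L' hL'
  have t := tab (fun r => L.count r) fun a ha => by
    rw [hc (2 * a) (by omega) (even_two_mul a)]; exact Nat.le_add_right _ _
  have t' := tab (fun r => L'.count r) fun a ha => by
    rw [hc (2 * a) (by omega) (even_two_mul a)]; exact Nat.le_add_left _ _
  have d : ∀ e < 40, finrank K (M ⊓ Wt ρ p e : Submodule K W) = SE (fun r => L.count r) 40 e :=
    (mult p W ρ hρ M L hL).2
  have d' : ∀ e < 40, finrank K (M' ⊓ Wt ρ p e : Submodule K W) = SE (fun r => L'.count r) 40 e :=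
    (mult p W ρ hρ M' L' hL').2
  obtain ⟨-, -, -, -, -, t2, t14, -⟩ := t
  obtain ⟨u0, u1, u3, u9, u27, u2, u14, u33⟩ := t'
  rw [← d _ (by norm_num)] at t2 t14
  rw [← d' _ (by norm_num)] at u0 u1 u3 u9 u27 u2 u14 u33
  have G := g1 p W ρ hρ hB M' hI (by
    simp only [Finset.sum_range_succ, Finset.sum_range_zero]
    change 0 + finrank K (M' ⊓ Wt ρ p 1 : Submodule K W) + finrank K (M' ⊓ Wt ρ p 3 : Submodule K W)
      + finrank K (M' ⊓ Wt ρ p 9 : Submodule K W) + finrank K (M' ⊓ Wt ρ p 27 : Submodule K W) ≤ _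
    omega)
  have hle : ∀ i < 4, 3 ^ i ≤ 27 := by decide
  have comm : ∀ i < 4, ∀ j < 4, Aop ρ p (3 ^ i) * Aop ρ p (3 ^ j) =
      Aop ρ p (3 ^ j) * Aop ρ p (3 ^ i) := by
    intro i hi j hj
    have := hle i hi
    have := hle j hj
    rw [aM _ (by omega) _ (by omega), aM _ (by omega) _ (by omega), if_pos (by omega),
      if_pos (by omega), add_comm (3 ^ j), Nat.choose_symm_add]
  have key : ∀ i < 4, ∀ e, Wt ρ p (3 ^ i + 3 ^ i) = Wt ρ p e →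
      L'.count (2 * 3 ^ i) + finrank K (M' ⊓ Wt ρ p e : Submodule K W) ≤
        finrank K (M' ⊓ Wt ρ p (3 ^ i) : Submodule K W) → M' ⊓ Wt ρ p e ≤ Fx ρ (UU F) := by
    intro i hi e he hd w hw'
    have hi27 := hle i hi
    have hh := hw p W ρ hρ M' L' hL' (3 ^ i) (by positivity) (by omega)
    obtain ⟨v, hv, rfl⟩ := onto (Aop ρ p (3 ^ i)) (M' ⊓ Wt ρ p (3 ^ i)) (M' ⊓ Wt ρ p e)
      (M' ⊓ Fx ρ (UU F) ⊓ Wt ρ p (3 ^ i))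
      (fun v hv => ⟨(aI M' hI _ v hv.1).1, he ▸ aW _ (by omega) _ v hv.2⟩)
      (fun v hv h0 => ⟨⟨hv.1, (aF v).1 fun j hj => by
        by_cases e : j = i
        · rw [e]; exact h0
        · exact (G i hi v hv).2 j hj e⟩, hv.2⟩) (by omega) w hw'
    refine (aF _).1 fun j hj => ?_
    by_cases e : j = i
    · rw [e]; exact (G i hi v hv).1
    · rw [← Module.End.mul_apply, comm j hj i hi, Module.End.mul_apply, (G i hi v hv).2 j hj e,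
        map_zero]
  refine ⟨by omega, by omega, by omega, by omega, key 0 (by norm_num) 2 rfl ?_,
    key 3 (by norm_num) 14 (a40 14) ?_, fun v hv => ?_⟩
  · change L'.count 2 + _ ≤ finrank K (M' ⊓ Wt ρ p 1 : Submodule K W)
    omega
  · change L'.count 54 + _ ≤ finrank K (M' ⊓ Wt ρ p 27 : Submodule K W)
    omega
  · have hu : ρ (ww F) v ∈ M' ⊓ Wt ρ p (3 ^ 0) := ⟨hI _ v hv.1, aw 39 (by norm_num) v hv.2⟩
    have h1 := (G 0 (by norm_num) _ hu).1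
    rw [← Module.End.mul_apply, aM _ (by norm_num) _ (by norm_num), if_pos (by norm_num)] at h1
    have h2 : (2 : K) ≠ 0 := by
      intro h
      have h3 : (3 : K) = 0 := by exact_mod_cast CharP.cast_eq_zero K 3
      have : (1 : K) = 0 := by linear_combination h3 - h
      exact one_ne_zero this
    have h3 : Aop ρ p 2 (ρ (ww F) v) = 0 := by
      norm_num at h1
      exact h1.resolve_left h2
    have h4 : ρ (ww F)⁻¹ = ρ (ww F) := by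
      have : ρ (ww F)⁻¹ * (ρ (ww F) * ρ (ww F)) = ρ (ww F) := by
        rw [← mul_assoc, ← map_mul, inv_mul_cancel, map_one, one_mul]
      rw [aww, mul_one] at this
      exact this
    unfold Bop
    rw [Module.End.mul_apply, Module.End.mul_apply, h4, h3, map_zero]

end Cfsg.Agent.H13.L81G2a
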