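import Cfsg.Agent.H71.P3Defs
import Cfsg.Agent.H38.R3Cov

/-!
Groups with two orbits on the points of a projective line over a field of odd order: if the size
of one orbit divides the order of the field, it is `1` or the order of the field.
-/

set_option autoImplicit false

namespace Cfsg.Agent.H13.P3Line

open Cfsg Module Cfsg.Agent.H71.P3
open scoped Pointwise

/-- The counting argument for a faithful action. -/
theorem perm_false {H Ω : Type} [Group H] [Finite H] [Finite Ω] [MulAction H Ω]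
    (s : Ω → Prop) {p q : ℕ} (hp : p.Prime) (hp2 : p ≠ 2) (hΩ : Nat.card Ω = q + 1) (hq : p ∣ q)
    (hb : p ∣ Nat.card {x // s x}) (hb0 : 0 < Nat.card {x // s x})
    (hb2 : 2 * Nat.card {x // s x} ≤ q)
    (inv : ∀ (h : H) x, s (h • x) ↔ s x)
    (tr : ∀ x y, (s x ↔ s y) → ∃ h : H, h • x = y)
    (P1 : ∀ (h : H) (x y z : Ω), x ≠ y → x ≠ z → y ≠ z → h • x = x → h • y = y → h • z = z →
      h = 1)
    (P2 : ∀ (h : H) (x y : Ω), x ≠ y → h • x = x → h • y = y → h ^ p = 1 → h = 1) : False := by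
  classical
  have := Fintype.ofFinite H
  have := Fintype.ofFinite Ω
  have : Fact p.Prime := ⟨hp⟩
  obtain ⟨⟨a, ha⟩⟩ : Nonempty {x // s x} := (Nat.card_pos_iff.1 hb0).1
  have horb : MulAction.orbit H a = {x | s x} := by
    ext x
    constructor
    · rintro ⟨h, rfl⟩
      exact (inv h a).2 ha
    · intro hx
      exact tr a x (iff_of_true ha hx)
  have hdvd : p ∣ Nat.card H := by
    refine hb.trans ?_
    have e : Nat.card {x // s x} = (MulAction.stabilizer H a).index := by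
      rw [MulAction.index_stabilizer, horb]
      rfl
    rw [e]
    exact Subgroup.index_dvd_card _
  obtain ⟨g, hg⟩ := exists_prime_orderOf_dvd_card' p hdvd
  have hgp : g ^ p = 1 := hg ▸ pow_orderOf_eq_one g
  have hg1 : g ≠ 1 := by
    rintro rfl
    rw [orderOf_one] at hg
    exact hp.one_lt.ne hg
  have hg2 : g ≠ g⁻¹ := by
    intro e
    have e2 : g ^ 2 = 1 := by
      rw [pow_two]
      nth_rewrite 1 [e]
      exact inv_mul_cancel g
    have := orderOf_dvd_of_pow_eq_one e2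
    rw [hg] at this
    exact hp2 ((Nat.prime_dvd_prime_iff_eq hp Nat.prime_two).1 this)
  have hB : Fintype.card {x // ¬ s x} + Nat.card {x // s x} = q + 1 := by
    rw [← hΩ, Nat.card_eq_fintype_card, Nat.card_eq_fintype_card, Fintype.card_subtype_compl]
    exact Nat.sub_add_cancel (Fintype.card_subtype_le _)
  obtain ⟨y0, hy0, hgy0⟩ : ∃ y0, ¬ s y0 ∧ g • y0 = y0 := by
    have hn : ¬ p ∣ Fintype.card {x // ¬ s x} := by
      intro h
      have h1 : p ∣ q + 1 := hB ▸ dvd_add h hb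
      exact hp.one_lt.ne' (Nat.dvd_one.1 ((Nat.dvd_add_right hq).1 h1))
    have hσ : ((MulAction.toPerm g : Equiv.Perm Ω).subtypePerm
        (p := fun x => ¬ s x) (fun x => not_congr (inv g x))) ^ p ^ 1 = 1 := by
      rw [pow_one, Equiv.Perm.subtypePerm_pow]
      ext x
      have e : (MulAction.toPerm g : Equiv.Perm Ω) ^ p = 1 := by
        have := map_pow (MulAction.toPermHom H Ω) g p
        rw [hgp, map_one] at this
        exact this.symm
      simp [e]
    obtain ⟨y, hy⟩ := Equiv.Perm.exists_fixed_point_of_prime hn hσ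
    exact ⟨y.1, y.2, congrArg Subtype.val hy⟩
  choose k hk using fun y : {x // ¬ s x} => tr y0 y.1 (iff_of_false hy0 y.2)
  let N : Finset H := Finset.univ.filter fun h => h ≠ 1 ∧ h ^ p = 1
  let e : Bool → H := fun ε => if ε then g else g⁻¹
  have he : ∀ ε, e ε ≠ 1 ∧ e ε ^ p = 1 ∧ e ε • y0 = y0 := by
    intro ε
    cases ε
    · refine ⟨inv_ne_one.2 hg1, ?_, ?_⟩
      · show g⁻¹ ^ p = 1
        rw [inv_pow, hgp, inv_one]
      · exact inv_smul_eq_iff.2 hgy0.symm
    · exact ⟨hg1, hgp, hgy0⟩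
  let c : {x // ¬ s x} × Bool → H := fun t => k t.1 * e t.2 * (k t.1)⁻¹
  have hc : ∀ t, c t ≠ 1 ∧ c t ^ p = 1 ∧ c t • t.1.1 = t.1.1 := by
    intro t
    refine ⟨?_, ?_, ?_⟩
    · intro h
      exact (he t.2).1 (conj_eq_one_iff.1 h)
    · show (k t.1 * e t.2 * (k t.1)⁻¹) ^ p = 1
      rw [conj_pow, (he t.2).2.1, mul_one, mul_inv_cancel]
    · show (k t.1 * e t.2 * (k t.1)⁻¹) • t.1.1 = t.1.1
      conv_lhs => rw [← hk t.1]
      rw [smul_smul, inv_mul_cancel_right, mul_smul, (he t.2).2.2, hk]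
  have hinj : Function.Injective c := by
    rintro ⟨y, ε⟩ ⟨y', ε'⟩ h
    have hy : y = y' := by
      by_contra hne
      have h1 := hc (y, ε)
      have h2 := hc (y', ε')
      rw [← h] at h2
      exact h1.1 (P2 _ y.1 y'.1 (fun h => hne (Subtype.ext h)) h1.2.2 h2.2.2 h1.2.1)
    subst hy
    have h3 : e ε = e ε' := mul_left_cancel (mul_right_cancel h)
    cases ε <;> cases ε'
    · rfl
    · exact absurd h3.symm hg2
    · exact absurd h3 hg2
    · rfl
  have hN : Fintype.card {x // ¬ s x} * 2 ≤ N.card := by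
    have := Finset.card_le_card_of_injOn (s := Finset.univ) (t := N) c
      (fun t _ => by simpa [N] using ⟨(hc t).1, (hc t).2.1⟩) hinj.injOn
    simpa using this
  have hbur := MulAction.sum_card_fixedBy_eq_card_orbits_mul_card_group H Ω
  have h2 : 2 ≤ Fintype.card (Quotient (MulAction.orbitRel H Ω)) := by
    refine Fintype.one_lt_card_iff.2 ⟨⟦y0⟧, ⟦a⟧, fun h => ?_⟩
    have h1 : y0 ∈ MulAction.orbit H a := Quotient.exact h
    rw [horb] at h1
    exact hy0 h1
  have hle : ∀ h : H, Fintype.card (MulAction.fixedBy Ω h) + (if h ∈ N then 1 else 0) ≤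
      2 + (if h = 1 then q - 1 else 0) := by
    intro h
    by_cases h1 : h = 1
    · have hn : h ∉ N := by simp [N, h1]
      have h3 : Fintype.card (MulAction.fixedBy Ω h) ≤ q + 1 := by
        rw [← hΩ, Nat.card_eq_fintype_card]
        exact Fintype.card_subtype_le _
      rw [if_neg hn, if_pos h1]
      omega
    · rw [if_neg h1]
      by_cases hn : h ∈ N
      · rw [if_pos hn]
        have h3 : Fintype.card (MulAction.fixedBy Ω h) ≤ 1 := by
          refine Fintype.card_le_one_iff.2 fun x y => ?_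
          by_contra hne
          exact h1 (P2 h x.1 y.1 (fun h => hne (Subtype.ext h)) x.2 y.2
            (Finset.mem_filter.1 hn).2.2)
        omega
      · rw [if_neg hn]
        have h3 : ¬ 2 < Fintype.card (MulAction.fixedBy Ω h) := by
          intro h3
          obtain ⟨x, y, z, a1, a2, a3⟩ := Fintype.two_lt_card_iff.1 h3
          exact h1 (P1 h x.1 y.1 z.1 (fun h => a1 (Subtype.ext h)) (fun h => a2 (Subtype.ext h))
            (fun h => a3 (Subtype.ext h)) x.2 y.2 z.2)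
        omega
  have hs := Finset.sum_le_sum (s := Finset.univ) fun h _ => hle h
  rw [Finset.sum_add_distrib, Finset.sum_add_distrib, hbur] at hs
  simp only [Finset.sum_ite_mem, Finset.univ_inter, Finset.sum_const, smul_eq_mul, mul_one,
    Finset.card_univ, Finset.sum_ite_eq', Finset.mem_univ, if_true] at hs
  have h4 := Nat.mul_le_mul_right (Fintype.card H) h2
  omega

section geo
variable {F V : Type} [Field F] [AddCommGroup V] [Module F V]

theorem pt_span {x : Submodule F V} (hx : dm x = 1) : ∃ u, u ≠ 0 ∧ x = F ∙ u := by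
  obtain ⟨v, hv0, hv⟩ := finrank_eq_one_iff'.1 hx
  refine ⟨v.1, fun h => hv0 (Subtype.ext h), le_antisymm (fun w hw => ?_) ?_⟩
  · obtain ⟨c, hc⟩ := hv ⟨w, hw⟩
    exact Submodule.mem_span_singleton.2 ⟨c, congrArg Subtype.val hc⟩
  · exact (Submodule.span_singleton_le_iff_mem _ _).2 v.2

theorem eig {g : V ≃ₗ[F] V} {u : V} (h : g • (F ∙ u) = F ∙ u) : ∃ a : F, g u = a • u := by
  have h1 : g u ∈ g • (F ∙ u) := smul_mem_smul.2 (Submodule.mem_span_singleton_self u)
  rw [h] at h1
  obtain ⟨a, ha⟩ := Submodule.mem_span_singleton.1 h1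
  exact ⟨a, ha.symm⟩

theorem indep {u v : V} (hu : u ≠ 0) (hv : v ≠ 0) (hne : (F ∙ u) ≠ F ∙ v) {a c : F}
    (h : a • u + c • v = 0) : a = 0 ∧ c = 0 := by
  have key : ∀ {u v : V} {a c : F}, u ≠ 0 → (F ∙ u) ≠ (F ∙ v) → a • u + c • v = 0 → a = 0 := by
    intro u v a c hu hne h
    by_contra ha
    have e : u = (-(a⁻¹ * c)) • v := by
      have e1 : a • u = -(c • v) := eq_neg_of_add_eq_zero_left h
      rw [neg_smul, mul_smul, ← smul_neg, ← e1, inv_smul_smul₀ ha]
    have hc : -(a⁻¹ * c) ≠ 0 := by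
      intro h0
      rw [h0, zero_smul] at e
      exact hu e
    exact hne (by rw [e, Submodule.span_singleton_smul_eq (Ne.isUnit hc)])
  exact ⟨key hu hne h, key hv hne.symm (by rw [add_comm]; exact h)⟩

theorem coord [FiniteDimensional F V] {L : Submodule F V} (hL : dm L = 2) {u v : V} (hu : u ≠ 0)
    (hv : v ≠ 0) (hne : (F ∙ u) ≠ F ∙ v) (h1 : (F ∙ u) ≤ L) (h2 : (F ∙ v) ≤ L) {w : V}
    (hw : w ∈ L) : ∃ a c : F, w = a • u + c • v := by
  have e : (F ∙ u) ⊔ (F ∙ v) = L :=
    H38.R3Cov.sup_eq_line (A := ⊥) bot_le (by simp [finrank_span_singleton hu]) bot_le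
      (by simp [finrank_span_singleton hv]) hne h1 h2 (by simpa using hL)
  rw [← e] at hw
  obtain ⟨y, hy, z, hz, rfl⟩ := Submodule.mem_sup.1 hw
  obtain ⟨a, rfl⟩ := Submodule.mem_span_singleton.1 hy
  obtain ⟨c, rfl⟩ := Submodule.mem_span_singleton.1 hz
  exact ⟨a, c, rfl⟩

/-- A map that is scalar on two different points fixes all the points of the line. -/
theorem fix_all [FiniteDimensional F V] {L : Submodule F V} (hL : dm L = 2) {u v : V}
    (hu : u ≠ 0) (hv : v ≠ 0) (hne : (F ∙ u) ≠ F ∙ v) (h1 : (F ∙ u) ≤ L) (h2 : (F ∙ v) ≤ L)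
    {g : V ≃ₗ[F] V} {a : F} (gu : g u = a • u) (gv : g v = a • v) {z : Submodule F V}
    (hz : dm z = 1) (hzL : z ≤ L) : g • z = z := by
  obtain ⟨w, -, rfl⟩ := pt_span hz
  obtain ⟨α, β, e⟩ := coord hL hu hv hne h1 h2 (hzL (Submodule.mem_span_singleton_self w))
  have ha : a ≠ 0 := by
    rintro rfl
    rw [zero_smul] at gu
    exact hu (g.map_eq_zero_iff.1 gu)
  have gw : g w = a • w := by
    rw [e, map_add, map_smul, map_smul, gu, gv, smul_add, smul_comm α a, smul_comm β a]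
  rw [smul_span, gw, Submodule.span_singleton_smul_eq (Ne.isUnit ha)]

theorem fix_three [FiniteDimensional F V] {L : Submodule F V} (hL : dm L = 2) {g : V ≃ₗ[F] V}
    {x y z : Submodule F V} (hx : dm x = 1) (hy : dm y = 1) (hz : dm z = 1) (xL : x ≤ L)
    (yL : y ≤ L) (zL : z ≤ L) (xy : x ≠ y) (xz : x ≠ z) (yz : y ≠ z) (gx : g • x = x)
    (gy : g • y = y) (gz : g • z = z) {t : Submodule F V} (ht : dm t = 1) (tL : t ≤ L) :
    g • t = t := by
  obtain ⟨u, hu, rfl⟩ := pt_span hx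
  obtain ⟨v, hv, rfl⟩ := pt_span hy
  obtain ⟨w, hw, rfl⟩ := pt_span hz
  obtain ⟨a, ha⟩ := eig gx
  obtain ⟨c, hc⟩ := eig gy
  obtain ⟨d, hd⟩ := eig gz
  obtain ⟨α, β, e⟩ := coord hL hu hv xy xL yL (zL (Submodule.mem_span_singleton_self w))
  have hα : α ≠ 0 := by
    rintro rfl
    rw [zero_smul, zero_add] at e
    have hβ : β ≠ 0 := by
      rintro rfl
      rw [zero_smul] at e
      exact hw e
    exact yz (by rw [e, Submodule.span_singleton_smul_eq (Ne.isUnit hβ)])
  have hβ : β ≠ 0 := by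
    rintro rfl
    rw [zero_smul, add_zero] at e
    exact xz (by rw [e, Submodule.span_singleton_smul_eq (Ne.isUnit hα)])
  have h0 : (α * (a - d)) • u + (β * (c - d)) • v = 0 := by
    rw [e, map_add, map_smul, map_smul, ha, hc] at hd
    linear_combination (norm := module) hd
  obtain ⟨e1, e2⟩ := indep hu hv xy h0
  have e3 : a = d := sub_eq_zero.1 ((mul_eq_zero.1 e1).resolve_left hα)
  have e4 : c = d := sub_eq_zero.1 ((mul_eq_zero.1 e2).resolve_left hβ)
  exact fix_all hL hu hv xy xL yL ha (by rw [hc, e3, e4]) ht tL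

theorem pow_eig {g : V ≃ₗ[F] V} {u : V} {a : F} (h : g u = a • u) (n : ℕ) :
    (g ^ n) u = a ^ n • u := by
  induction n with
  | zero => simp
  | succ n ih => rw [pow_succ, LinearEquiv.mul_apply, h, map_smul, ih, smul_smul, pow_succ']

theorem fix_two [FiniteDimensional F V] {L : Submodule F V} (hL : dm L = 2) {p : ℕ} [ExpChar F p]
    {g : V ≃ₗ[F] V} {x y : Submodule F V} (hx : dm x = 1) (hy : dm y = 1) (xL : x ≤ L)
    (yL : y ≤ L) (xy : x ≠ y) (gx : g • x = x) (gy : g • y = y)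
    (hp : ∀ z, dm z = 1 → z ≤ L → g ^ p • z = z) {t : Submodule F V} (ht : dm t = 1)
    (tL : t ≤ L) : g • t = t := by
  obtain ⟨u, hu, rfl⟩ := pt_span hx
  obtain ⟨v, hv, rfl⟩ := pt_span hy
  obtain ⟨a, ha⟩ := eig gx
  obtain ⟨c, hc⟩ := eig gy
  have hw : u + v ≠ 0 := by
    intro h
    exact one_ne_zero (indep (a := (1 : F)) (c := 1) hu hv xy (by simpa using h)).1
  obtain ⟨d, hd⟩ := eig (hp (F ∙ (u + v)) (finrank_span_singleton hw)
    ((Submodule.span_singleton_le_iff_mem _ _).2 (add_mem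
      (xL (Submodule.mem_span_singleton_self u)) (yL (Submodule.mem_span_singleton_self v)))))
  have h0 : (a ^ p - d) • u + (c ^ p - d) • v = 0 := by
    rw [map_add, pow_eig ha, pow_eig hc] at hd
    linear_combination (norm := module) hd
  obtain ⟨e1, e2⟩ := indep hu hv xy h0
  have e3 : a = c := by
    apply frobenius_inj F p
    rw [frobenius_def, frobenius_def, sub_eq_zero.1 e1, sub_eq_zero.1 e2]
  exact fix_all hL hu hv xy xL yL ha (by rw [hc, e3]) ht tL

end geo

/-- **LINE** -/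
theorem line : LineStmt := by
  intro F V _ _ _ _ _ Γ L s hodd hL hΓ hs htr hdvd
  classical
  by_contra hcon
  push Not at hcon
  have := Fintype.ofFinite F
  have : Finite (Submodule F V) := H38.R3Cov.finSub
  have : Finite (V ≃ₗ[F] V) := H38.R3Cov.finEquiv
  obtain ⟨p, hchar⟩ := CharP.exists F
  obtain ⟨n, hp, hn⟩ := FiniteField.card F p
  rw [← Nat.card_eq_fintype_card] at hn
  have : Fact p.Prime := ⟨hp⟩
  have hq0 : 0 < Nat.card F := Nat.card_pos
  have hpq : p ∣ Nat.card F := by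
    rw [hn]
    exact dvd_pow_self p n.ne_zero
  have hp2 : p ≠ 2 := by
    rintro rfl
    exact (Nat.not_even_iff_odd.2 hodd) (even_iff_two_dvd.2 hpq)
  let Ω := {x : Submodule F V // dm x = 1 ∧ x ≤ L}
  let _ : MulAction Γ Ω :=
    { smul := fun g x => ⟨g.1 • x.1, (dm_smul _ _).trans x.2.1, by
        have := (smul_le_smul (g := g.1)).2 x.2.2
        rwa [hΓ g.1 g.2] at this⟩
      one_smul := fun x => Subtype.ext (one_smul _ x.1)
      mul_smul := fun g h x => Subtype.ext (mul_smul g.1 h.1 x.1) }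
  have hΩ : Nat.card Ω = Nat.card F + 1 := by
    rw [← H38.R3Cov.ncard_line (A := ⊥) (L := L) bot_le (by simpa using hL)]
    refine Nat.card_congr (Equiv.subtypeEquivRight fun x => ?_)
    simp [H79.R3.Cov, and_comm]
  have hcnt : Nat.card {x : Ω // s x.1} = cnt s L := by
    refine Nat.card_congr ?_
    exact (Equiv.subtypeSubtypeEquivSubtypeInter (fun x : Submodule F V => dm x = 1 ∧ x ≤ L) s).trans
      (Equiv.subtypeEquivRight fun x => and_assoc)
  have hb0 : 0 < cnt s L := Nat.pos_of_dvd_of_pos hdvd hq0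
  have hb : p ∣ cnt s L := by
    have h1 := hdvd
    rw [hn] at h1
    obtain ⟨j, -, hj⟩ := (Nat.dvd_prime_pow hp).1 h1
    rw [hj]
    refine dvd_pow_self p ?_
    rintro rfl
    exact hcon.1 (by simpa using hj)
  have hb2 : 2 * cnt s L ≤ Nat.card F := by
    obtain ⟨m, hm⟩ := hdvd
    have h1 : m ≠ 1 := by
      rintro rfl
      exact hcon.2 (by simpa using hm.symm)
    have h0 : m ≠ 0 := by
      rintro rfl
      omega
    rw [hm, mul_comm]
    exact Nat.mul_le_mul_left _ (by omega)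
  refine perm_false (H := (MulAction.toPermHom Γ Ω).range) (Ω := Ω) (fun x => s x.1) hp hp2 hΩ hpq
    (hcnt ▸ hb) (hcnt ▸ hb0) (hcnt ▸ hb2) ?_ ?_ ?_ ?_
  · rintro ⟨_, g, rfl⟩ x
    exact hs g.1 g.2 x.1 x.2.1 x.2.2
  · intro x y h
    obtain ⟨g, hg, e⟩ := htr x.1 y.1 x.2.1 x.2.2 y.2.1 y.2.2 h
    exact ⟨⟨_, ⟨g, hg⟩, rfl⟩, Subtype.ext e⟩
  · rintro ⟨_, g, rfl⟩ x y z a1 a2 a3 b1 b2 b3
    refine Subtype.ext (Equiv.ext fun t => Subtype.ext ?_)
    exact fix_three hL x.2.1 y.2.1 z.2.1 x.2.2 y.2.2 z.2.2 (fun h => a1 (Subtype.ext h))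
      (fun h => a2 (Subtype.ext h)) (fun h => a3 (Subtype.ext h)) (congrArg Subtype.val b1)
      (congrArg Subtype.val b2) (congrArg Subtype.val b3) t.2.1 t.2.2
  · rintro ⟨_, g, rfl⟩ x y a1 b1 b2 h
    refine Subtype.ext (Equiv.ext fun t => Subtype.ext ?_)
    refine fix_two (p := p) hL x.2.1 y.2.1 x.2.2 y.2.2 (fun h => a1 (Subtype.ext h))
      (congrArg Subtype.val b1) (congrArg Subtype.val b2) (fun z hz zL => ?_) t.2.1 t.2.2
    have h1 : MulAction.toPermHom Γ Ω (g ^ p) = 1 := by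
      rw [map_pow]
      exact congrArg Subtype.val h
    exact congrArg Subtype.val (Equiv.congr_fun h1 ⟨z, hz, zL⟩)

end Cfsg.Agent.H13.P3Line
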