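import Cfsg.Agent.H79.RbDefs
import Cfsg.Agent.H11.Irr

/-!
# Spin characters are Schur `Q`-functions
-/

set_option autoImplicit false
set_option linter.style.haveILetI false

namespace Cfsg.Agent.H13.RbId

open Cfsg Equiv Finset Cfsg.Agent.H79.RB

variable (F : SpinFam)

/-- The sign character. -/
def sg (n : ℕ) (g : F.G n) : ℂ := ((Perm.sign (F.π n g) : ℤ) : ℂ)

theorem sg_one (n : ℕ) : sg F n 1 = 1 := by simp [sg]

theorem sg_mul (n : ℕ) (g h : F.G n) : sg F n (g * h) = sg F n g * sg F n h := by simp [sg]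

theorem sg_sq (n : ℕ) (g : F.G n) : sg F n g * sg F n g = 1 := by
  rw [sg, ← Int.cast_mul, ← Units.val_mul, Int.units_mul_self]
  simp

theorem sg_char (n : ℕ) : IsCharacter (F.G n) (sg F n) :=
  H11.isCharacter_of_irr (H11.isIrrCharacter_of_map_mul (sg_one F n) (sg_mul F n))

theorem sg_z (n : ℕ) : sg F n (F.z n) = 1 := by
  rw [sg, (F.ker n _).mpr (Or.inr rfl)]
  simp

/-- The spin characters. -/
abbrev II (n : ℕ) : Type := {θ : IrrCharacter (F.G n) // F.Spin (θ : F.G n → ℂ)}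

/-- The associate character. -/
def tw (n : ℕ) (θ : II F n) : II F n :=
  ⟨⟨θ.1.1 * sg F n, H11.isIrrCharacter_mul_linear θ.1.2 (sg_char F n) (sg_one F n)⟩,
    H11.isClassFunction_of_irr (H11.isIrrCharacter_mul_linear θ.1.2 (sg_char F n) (sg_one F n)),
    fun g => by simp only [Pi.mul_apply]; rw [θ.2.2, sg_mul, sg_z]; ring⟩

theorem tw_val (n : ℕ) (θ : II F n) (g : F.G n) : (tw F n θ).1.1 g = θ.1.1 g * sg F n g := rfl

theorem tw_tw (n : ℕ) (θ : II F n) : tw F n (tw F n θ) = θ :=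
  Subtype.ext (Subtype.ext (funext fun g => by rw [tw_val, tw_val, mul_assoc, sg_sq, mul_one]))

theorem ev_of (n : ℕ) (θ : II F n) (h : tw F n θ = θ) : F.Ev θ.1.1 := by
  intro g hg
  have h1 := tw_val F n θ g
  rw [h, sg, hg] at h1
  simp only [Units.val_neg, Units.val_one, Int.cast_neg, Int.cast_one] at h1
  linear_combination h1 / 2

theorem s2_ne : s2 ≠ 0 := fun h => by
  have := s2_mul_self
  rw [h] at this
  norm_num at this

theorem idStmt (hL : LatStmt) (hC : ClassStmt) (hM : MonStmt) (hV : ValStmt) (hP : ParsStmt)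
    (hS : StrStmt) (hR : ProdStmt) : IdStmt := by
  classical
  intro F n θ hθ
  letI : ∀ n, Fintype (IrrCharacter (F.G n)) := fun n => Fintype.ofFinite _
  letI : ∀ n, Fintype (II F n) := fun n => Subtype.fintype _
  have ch : ∀ {n} (i : II F n), IsCharacter _ i.1.1 := fun i => H11.irr_isCharacter i.1
  have one : ∀ n (i : II F n), ip (MvPolynomial.monomial (Finsupp.single 0 n) 1) (F.ch i.1.1) =
      s2 ^ n / 2 ^ Multiset.card (H19.typ (1 : Perm (Fin n))) * (i.1.1 1 * F.τ n 1) := by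
    intro n i
    have := (hV F n i.1.1).2.1 i.2 1 (by rw [map_one]; exact (hM.2.2.1 n).1)
    rwa [map_one (F.π n), (hM.2.2.1 n).2] at this
  have tau : ∀ n, F.τ n 1 ^ 2 * 2 ^ n = 2 ^ Multiset.card (H19.typ (1 : Perm (Fin n))) := by
    intro n
    have := F.τ_sq n 1 (by rw [map_one]; exact (hM.2.2.1 n).1)
    rwa [map_one] at this
  have key : ∀ a b (i : II F a) (j : II F (a + b)), 0 < b → ∃ β : F.G b → ℂ, IsCharacter _ β ∧
      (Odd b → F.Ev β) ∧ ip (qq b * F.ch i.1.1) (F.ch j.1.1) =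
        (if Odd b then s2 else 2) * F.rr i.1.1 β j.1.1 := by
    intro a b i j hb
    obtain ⟨β, h1, h2, h3, h4⟩ := F.basic b hb
    refine ⟨β, h1, h4, ?_⟩
    rw [(hV F b β).2.2 hb h3, smul_mul_assoc, map_smul, LinearMap.smul_apply, mul_comm,
      hR F a b _ _ _ i.2 ⟨H11.isClassFunction_of_isCharacter h1, h2⟩ j.2, smul_eq_mul]
  refine hL (II F) (tw F) (fun n i => F.ch i.1.1) (tw_tw F) ?_ (fun n i => (hV F n _).1) ?_ ?_ ?_
    ?_ ?_ n ⟨θ, hθ⟩
  · intro n i
    simp only [SpinFam.ch]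
    congr 1
    refine sum_congr rfl fun g hg => ?_
    rw [tw_val, sg, ((hC F n).2.2.2 g).1 (mem_filter.mp hg).2]
    simp
  · intro n i h
    have h1 := one n i
    rw [h, map_zero] at h1
    refine mul_ne_zero (div_ne_zero (pow_ne_zero _ s2_ne) (pow_ne_zero _ two_ne_zero))
      (mul_ne_zero (H11.irr_apply_one_ne_zero i.1.2) fun h0 => ?_) h1.symm
    have := tau n
    rw [h0] at this
    exact pow_ne_zero _ two_ne_zero (this.symm.trans (by ring))
  · intro n P h
    refine (hP F n P h).trans ?_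
    exact sum_subtype _ (fun θ => by simp) _
  · intro i
    have h1 := one 0 i
    have h2 := tau 0
    have h3 : Multiset.card (H19.typ (1 : Perm (Fin 0))) = 0 := by simp [H19.typ_eq]
    rw [h3] at h1 h2
    obtain ⟨d, hd⟩ := H11.exists_nat_degree (ch i)
    have h4 : ip 1 (F.ch i.1.1) = d * F.τ 0 1 := by simpa [hd] using h1
    rcases sq_eq_one_iff.mp (by simpa using h2 : F.τ 0 1 ^ 2 = 1) with e | e
    · exact ⟨d, by simp [h4, e]⟩
    · exact ⟨-d, by simp [h4, e]⟩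
  · intro a b i j hb
    obtain ⟨β, h1, h2, h3⟩ := key a b i j hb.pos
    obtain ⟨h4, h5⟩ := hS F a b _ _ _ (ch i) h1 (ch j) j.2
    rw [h3, if_pos hb, ← mul_assoc, s2_mul_self, mul_div_cancel_left₀ _ s2_ne]
    exact ⟨h4, fun h => h5 (h.elim (fun h => Or.inl ⟨ev_of F a i h, h2 hb⟩)
      fun h => Or.inr (Or.inr ⟨h2 hb, ev_of F _ j h⟩))⟩
  · intro a b i j hb hb'
    obtain ⟨β, h1, -, h3⟩ := key a b i j hb'
    obtain ⟨h4, h5⟩ := hS F a b _ _ _ (ch i) h1 (ch j) j.2
    rw [h3, if_neg (Nat.not_odd_iff_even.mpr hb), mul_div_cancel_left₀ _ two_ne_zero]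
    exact ⟨h4, fun h h' => h5 (Or.inr (Or.inl ⟨ev_of F a i h, ev_of F _ j h'⟩))⟩

theorem eqns_RbId : True := by
  have := @sg.eq_1
  have := @tw.eq_1
  trivial

end Cfsg.Agent.H13.RbId
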