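import Cfsg.Agent.H74.RuDefs
import Cfsg.Agent.H29.DicksonCore

/-!
Subgroups of `PGL₂(F)` of order prime to the characteristic whose point stabilisers all have at
least four elements.
-/

set_option autoImplicit false

namespace Cfsg.Agent.H13.RuPg2

open Cfsg Cfsg.Agent.H29 Cfsg.Agent.H74.Ru
open scoped MatrixGroups

theorem pg2 (hk : KleinStmt) : Pg2Stmt := by
  intro F _ _ H hp h4
  have : Finite PGL(2, F) := Finite.of_surjective pmk pmk_surj
  have := finite_P1 (K := F)
  have hprime : (ringChar F).Prime := CharP.char_is_prime F _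
  let f : F →+* AlgebraicClosure F := algebraMap F _
  let _ : MulAction H (P1 (AlgebraicClosure F)) :=
    MulAction.compHom _ ((pmap f).comp H.subtype)
  have sm : ∀ (g : H) (x : P1 (AlgebraicClosure F)), g • x = pmap f g.1 • x := fun _ _ => rfl
  have hΩ : (Set.range (P1map f)).ncard = Nat.card F + 1 := by
    rw [Set.ncard_range_of_injective (P1map_injective f), card_P1]
  have h2 : 2 ≤ Nat.card F := Finite.one_lt_card
  have key := hk H (P1 (AlgebraicClosure F)) (fun g hg => ?_) (Set.range (P1map f))
    (Set.finite_range _) ?_ ?_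
  · omega
  · have g1 : pmap f g.1 ≠ 1 := fun e =>
      hg (Subtype.ext (pmap_injective f (e.trans (map_one _).symm)))
    have a := ncard_fix_add g1 (exists_fixed_of_isAlgClosed _)
    have b : {x | pmap f g.1 ∈ uni x} = ∅ := by
      refine Set.eq_empty_of_forall_notMem fun x hx => hp ?_
      have c : pmap f g.1 ^ ringChar F = 1 := (uni_pow_eq_one_iff hx _).2 (.inr (by
        rw [← map_natCast f, CharP.cast_eq_zero, map_zero]))
      have d : g ^ ringChar F = 1 :=
        Subtype.ext (pmap_injective f (by rw [Subgroup.coe_pow, map_pow, c]; simp))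
      have : Fact (ringChar F).Prime := ⟨hprime⟩
      rw [← orderOf_eq_prime d hg]
      exact orderOf_dvd_natCard g
    rw [b, Set.ncard_empty, add_zero] at a
    exact a
  · rintro g _ ⟨x, rfl⟩
    exact ⟨_, (pmap_smul_P1map f g.1 x).symm⟩
  · rintro _ ⟨x, rfl⟩
    have e : MulAction.stabilizer H (P1map f x) = MulAction.stabilizer H x :=
      Subgroup.ext fun g => pmap_smul_P1map_eq_iff f g.1 x x
    rw [e]
    exact h4 x

end Cfsg.Agent.H13.RuPg2
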