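import Cfsg.Agent.H35.S4Defs

/-!
# Standard subgroups `Sp₄(q)`: the doubled group of the root `3`
-/

set_option autoImplicit false
set_option linter.unusedSectionVars false

namespace Cfsg.Agent.H13.S4H3

open Cfsg Cfsg.Agent.H63 Cfsg.Agent.H63.SL Cfsg.Agent.H35.S4 Subgroup
open scoped commutatorElement

universe u v

variable {F : Type v} [Field F] {G : Type u} [Group G] {L : Subgroup G} {x : ZMod 8 → F → G}
  {t : G} {P : Subgroup G}

theorem x0 (h : Pin2 x) (i : ZMod 8) : x i 0 = 1 := by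
  have := h.add i 0 0
  rw [add_zero] at this
  exact mul_eq_left.mp this.symm

theorem aa (h : Pin2 x) (a : F) : a + a = 0 := by rw [← two_mul, h.two, zero_mul]

theorem xx (h : Pin2 x) (i : ZMod 8) (a : F) : x i a * x i a = 1 := by
  rw [← h.add, aa h, x0 h]

theorem xinv (h : Pin2 x) (i : ZMod 8) (a : F) : (x i a)⁻¹ = x i a :=
  inv_eq_of_mul_eq_one_right (xx h i a)

theorem xext (h : Pin2 x) (i : ZMod 8) {a b : F} (e : x i a = x i b) : a = b := by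
  have := h.inj i (a + b) (by rw [h.add, e, xx h])
  linear_combination this - aa h b

theorem xc (h : Pin2 x) (i : ZMod 8) (a b : F) : Commute (x i a) (x i b) := by
  rw [Commute, SemiconjBy, ← h.add, ← h.add, add_comm]

theorem odd_sq {o : G} (ho : Odd (orderOf o)) {n : ℕ} (h : o ^ 2 ^ n = 1) : o = 1 := by
  have h1 := orderOf_dvd_of_pow_eq_one h
  exact orderOf_eq_one_iff.mp (Nat.eq_one_of_dvd_coprimes
    (Nat.Coprime.pow_left n (Nat.coprime_two_left.mpr ho)) h1 dvd_rfl)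

theorem tt (hC : Ctx L x t) : t * t = 1 := by
  rw [← pow_two, ← hC.tc.t2, pow_orderOf_eq_one]

theorem tx (hC : Ctx L x t) (i : ZMod 8) (a : F) : Commute t (x i a) :=
  hC.kb.tL _ (hC.kb.xL i a)

theorem txtx (hC : Ctx L x t) (b : F) : t * x 3 b * (t * x 3 b) = 1 := by
  rw [(tx hC 3 b).symm.mul_mul_mul_comm, tt hC, xx hC.mod.pin, one_mul]

theorem memA (hC : Ctx L x t) (a : F) : x 3 a ∈ A3 x 3 :=
  (hC.kp.memA 3 _).mpr ⟨0, a, 0, by rw [x0 hC.mod.pin, x0 hC.mod.pin, one_mul, mul_one]⟩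

theorem cx (hC : Ctx L x t) {p : G} (hp : p ∈ C[A3 x 3]) (a : F) : Commute p (x 3 a) :=
  (hp _ (memA hC a)).symm

theorem lam_mul (hC : Ctx L x t) {p p' : G} (hp : p ∈ C[A3 x 3]) {a a' : F}
    (h : p * t * p⁻¹ = t * x 3 a) (h' : p' * t * p'⁻¹ = t * x 3 a') :
    p * p' * t * (p * p')⁻¹ = t * x 3 (a + a') :=
  calc p * p' * t * (p * p')⁻¹ = p * (p' * t * p'⁻¹) * p⁻¹ := by group
    _ = p * t * p⁻¹ * (p * x 3 a' * p⁻¹) := by rw [h']; group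
    _ = _ := by rw [h, (cx hC hp a').eq, mul_inv_cancel_right, hC.mod.pin.add, mul_assoc]

theorem lam_inv (hC : Ctx L x t) {p : G} (hp : p ∈ C[A3 x 3]) {a : F}
    (h : p * t * p⁻¹ = t * x 3 a) : p⁻¹ * t * p⁻¹⁻¹ = t * x 3 a := by
  have h1 : p⁻¹ * t * p⁻¹⁻¹ * x 3 a = t :=
    calc p⁻¹ * t * p⁻¹⁻¹ * x 3 a = p⁻¹ * t * (p * x 3 a) := by group
      _ = p⁻¹ * (t * x 3 a) * p := by rw [(cx hC hp a).eq]; group
      _ = t := by rw [← h]; group
  rw [← xinv hC.mod.pin 3 a, eq_mul_inv_iff_mul_eq, h1]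

theorem lam_zero (hC : Ctx L x t) {p : G} : p * t * p⁻¹ = t * x 3 0 ↔ Commute p t := by
  rw [x0 hC.mod.pin, mul_one, mul_inv_eq_iff_eq_mul]
  rfl

theorem lam_uniq (hC : Ctx L x t) {p : G} {a a' : F} (h : p * t * p⁻¹ = t * x 3 a)
    (h' : p * t * p⁻¹ = t * x 3 a') : a = a' :=
  xext hC.mod.pin 3 (mul_left_cancel (h.symm.trans h'))

theorem lam_tor (hC : Ctx L x t) {h : G} (hh : h ∈ HH x L) {α β : Fˣ} (ht : Tor x h α β) {p : G}
    {a : F} (hp : p * t * p⁻¹ = t * x 3 a) :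
    h * p * h⁻¹ * t * (h * p * h⁻¹)⁻¹ = t * x 3 (wt α β 3 * a) := by
  have c := (hC.kb.tL h hh.1).eq
  calc h * p * h⁻¹ * t * (h * p * h⁻¹)⁻¹ = h * p * (h⁻¹ * (t * h)) * p⁻¹ * h⁻¹ := by group
    _ = h * (p * t * p⁻¹) * h⁻¹ := by rw [c]; group
    _ = h * t * h⁻¹ * (h * x 3 a * h⁻¹) := by rw [hp]; group
    _ = _ := by rw [ht, ← c, mul_inv_cancel_right]

theorem fix0 (hC : Ctx L x t) (hP : Hat1 L x t P) (hA : P ≤ C[A3 x 3]) {p : G} (hp : p ∈ P)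
    (hc : Commute p t) : ∃ b, p = x 3 b ∨ p = t * x 3 b := by
  obtain ⟨n, hn⟩ := hP.two ⟨p, hp⟩
  have hn' : p ^ 2 ^ n = 1 := congrArg Subtype.val hn
  have key : ∀ v o : G, v * v = 1 → Commute v o → Odd (orderOf o) → p = v * o → o = 1 := by
    intro v o h1 h2 h3 h4
    refine odd_sq h3 (n := n + 1) ?_
    have : p ^ 2 ^ (n + 1) = 1 := by rw [pow_succ, pow_mul, hn', one_pow]
    rwa [h4, h2.mul_pow, pow_succ', pow_mul, pow_two, h1, one_pow, one_mul, ← pow_succ'] at this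
  obtain ⟨b, o, ho, h⟩ := hC.kb.cAT 3 p hc (hA hp) (hP.cen hp).2
  have c1 : Commute (x 3 b) o := ho.1 _ (hC.kb.xL 3 b)
  refine ⟨b, h.imp (fun e => ?_) fun e => ?_⟩
  · rw [e, key _ o (xx hC.mod.pin 3 b) c1 ho.2.2 e, mul_one]
  · rw [e, key _ o (txtx hC b)
      (ho.2.1.symm.mul_left c1) ho.2.2 e, mul_one]

theorem sq (hC : Ctx L x t) (hP : Hat1 L x t P) (hA : P ≤ C[A3 x 3]) {p : G} (hp : p ∈ P) :
    ∃ b, p * p = x 3 b := by
  obtain ⟨a, ha⟩ := hP.mov p hp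
  have h1 := lam_mul hC (hA hp) ha ha
  rw [aa hC.mod.pin, lam_zero hC] at h1
  obtain ⟨b, e | e⟩ := fix0 hC hP hA (P.mul_mem hp hp) h1
  · exact ⟨b, e⟩
  have h2 : Commute p t := by
    have : t = p * p * (x 3 b)⁻¹ := by rw [e, mul_inv_cancel_right]
    rw [this]
    exact ((Commute.refl p).mul_right (Commute.refl p)).mul_right (cx hC (hA hp) b).inv_right
  obtain ⟨c, e' | e'⟩ := fix0 hC hP hA hp h2
  · exact ⟨0, by rw [e', xx hC.mod.pin, x0 hC.mod.pin]⟩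
  · exact ⟨0, by rw [e', txtx hC, x0 hC.mod.pin]⟩

theorem inv_eq (hC : Ctx L x t) {p : G} {b : F} (h : p * p = x 3 b) : p⁻¹ = x 3 b * p := by
  rw [← xinv hC.mod.pin, ← h]
  group

theorem comm (hC : Ctx L x t) (hP : Hat1 L x t P) (hA : P ≤ C[A3 x 3]) {p p' : G} (hp : p ∈ P)
    (hp' : p' ∈ P) : ∃ b, p' * p = x 3 b * (p * p') := by
  obtain ⟨a, ha⟩ := sq hC hP hA hp
  obtain ⟨a', ha'⟩ := sq hC hP hA hp'
  obtain ⟨c, hc⟩ := sq hC hP hA (P.mul_mem hp hp')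
  refine ⟨a + c + a', ?_⟩
  calc p' * p = p⁻¹ * (p * p' * (p * p')) * p'⁻¹ := by group
    _ = x 3 a * (p * (x 3 c * x 3 a')) * p' := by
        rw [hc, inv_eq hC ha, inv_eq hC ha']; group
    _ = _ := by
        rw [← hC.mod.pin.add, (cx hC (hA hp) _).eq, ← mul_assoc, ← hC.mod.pin.add, add_assoc,
          mul_assoc]

theorem conj_mem (hP : Hat1 L x t P) {h : G} (hh : h ∈ HH x L) {p : G} (hp : p ∈ P) :
    h * p * h⁻¹ ∈ P := (mem_normalizer_iff.mp (hP.nH hh) p).mp hp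

theorem x_mem (hC : Ctx L x t) (hP : Hat1 L x t P) (a : F) : x 3 a ∈ P :=
  hP.le ((hC.kp.memX 3 _).mpr ⟨a, rfl⟩)

/-- The group `X₃ [P, h]`. -/
def YY (hC : Ctx L x t) (hP : Hat1 L x t P) (hA : P ≤ C[A3 x 3]) {h : G} (hh : h ∈ HH x L) :
    Subgroup G where
  carrier := {y | ∃ b, ∃ p ∈ P, y = x 3 b * (h * p * h⁻¹ * p⁻¹)}
  one_mem' := ⟨0, 1, P.one_mem, by simp [x0 hC.mod.pin]⟩
  mul_mem' := by
    rintro _ _ ⟨b, p, hp, rfl⟩ ⟨b', p', hp', rfl⟩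
    have m := P.mul_mem (conj_mem hP hh hp') (P.inv_mem hp')
    obtain ⟨c, hc⟩ := comm hC hP hA m (P.inv_mem hp)
    refine ⟨b + (b' + c), p * p', P.mul_mem hp hp', ?_⟩
    have c1 := cx hC (hA (P.mul_mem (conj_mem hP hh hp) (P.inv_mem hp))) b'
    have c2 := cx hC (hA (conj_mem hP hh hp)) c
    calc x 3 b * (h * p * h⁻¹ * p⁻¹) * (x 3 b' * (h * p' * h⁻¹ * p'⁻¹))
        = x 3 b * (h * p * h⁻¹ * p⁻¹ * x 3 b') * (h * p' * h⁻¹ * p'⁻¹) := by group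
      _ = x 3 b * x 3 b' * (h * p * h⁻¹) * (p⁻¹ * (h * p' * h⁻¹ * p'⁻¹)) := by
          rw [c1.eq]; group
      _ = x 3 b * x 3 b' * (h * p * h⁻¹ * x 3 c) * (h * p' * h⁻¹ * p'⁻¹ * p⁻¹) := by
          rw [hc]; group
      _ = _ := by rw [c2.eq, hC.mod.pin.add, hC.mod.pin.add]; group
  inv_mem' := by
    rintro _ ⟨b, p, hp, rfl⟩
    obtain ⟨c, hc⟩ := sq hC hP hA
      (P.mul_mem (x_mem hC hP b) (P.mul_mem (conj_mem hP hh hp) (P.inv_mem hp)))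
    exact ⟨c + b, p, hp, by rw [inv_eq hC hc, hC.mod.pin.add, mul_assoc (x 3 c)]⟩

theorem mem_YY (hC : Ctx L x t) (hP : Hat1 L x t P) (hA : P ≤ C[A3 x 3]) {h : G}
    (hh : h ∈ HH x L) {y : G} :
    y ∈ YY hC hP hA hh ↔ ∃ b, ∃ p ∈ P, y = x 3 b * (h * p * h⁻¹ * p⁻¹) := Iff.rfl

/-- The first properties. -/
structure Pre (L : Subgroup G) (x : ZMod 8 → F → G) (t : G) (P Y : Subgroup G) : Prop where
  sub : Y ≤ P
  le : ∀ a, x 3 a ∈ Y
  nH : ∀ h ∈ HH x L, ∀ y ∈ Y, h * y * h⁻¹ ∈ Y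
  surj : ∀ a, ∃ p ∈ Y, p * t * p⁻¹ = t * x 3 a
  fix : ∀ p ∈ Y, Commute p t → ∃ a, p = x 3 a

theorem pre (hC : Ctx L x t) (hP : Hat1 L x t P) (hA : P ≤ C[A3 x 3]) : ∃ Y, Pre L x t P Y := by
  obtain ⟨γ, hγ, -⟩ := hC.kb.ne1
  obtain ⟨h, hh, α, β, ht, hw⟩ := hC.kb.wtH 3 γ
  have hγ' : (γ : F) + 1 ≠ 0 := fun e => hγ (Units.ext (by
    rw [Units.val_one]; linear_combination e - aa hC.mod.pin 1))
  have lam : ∀ b, ∀ p ∈ P, ∀ a, p * t * p⁻¹ = t * x 3 a →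
      x 3 b * (h * p * h⁻¹ * p⁻¹) * t * (x 3 b * (h * p * h⁻¹ * p⁻¹))⁻¹ =
        t * x 3 ((γ + 1) * a) := by
    intro b p hp a ha
    have := lam_mul hC (hA (x_mem hC hP b)) ((lam_zero hC).mpr (tx hC 3 b).symm)
      (lam_mul hC (hA (conj_mem hP hh hp)) (lam_tor hC hh ht ha) (lam_inv hC (hA hp) ha))
    rw [this, hw]
    congr 2
    ring
  refine ⟨YY hC hP hA hh, ?_, fun a => ⟨a, 1, P.one_mem, by simp⟩, ?_, fun a => ?_, ?_⟩
  · rintro _ ⟨b, p, hp, rfl⟩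
    exact P.mul_mem (x_mem hC hP b) (P.mul_mem (conj_mem hP hh hp) (P.inv_mem hp))
  · rintro k hk _ ⟨b, p, hp, rfl⟩
    obtain ⟨α', β', ht'⟩ := hC.kp.memH k hk
    refine ⟨wt α' β' 3 * b, k * p * k⁻¹, conj_mem hP hk hp, ?_⟩
    have c := (hC.kb.comH k hk h hh).eq
    rw [← ht']
    calc k * (x 3 b * (h * p * h⁻¹ * p⁻¹)) * k⁻¹
        = k * x 3 b * k⁻¹ * (k * h * p * (k * h)⁻¹ * (k * p * k⁻¹)⁻¹) := by group
      _ = _ := by rw [c]; group
  · obtain ⟨p, hp, ha⟩ := hP.surj (a / (γ + 1))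
    refine ⟨_, ⟨0, p, hp, rfl⟩, ?_⟩
    rw [lam 0 p hp _ ha, mul_div_cancel₀ _ hγ']
  · rintro _ ⟨b, p, hp, rfl⟩ hc
    obtain ⟨a, ha⟩ := hP.mov p hp
    have h0 := lam_uniq hC (lam b p hp a ha) ((lam_zero hC).mpr hc)
    rw [(mul_eq_zero.mp h0).resolve_left hγ', lam_zero hC] at ha
    obtain ⟨c, e | e⟩ := fix0 hC hP hA hp ha
    · exact ⟨b + (wt α β 3 * c + c), by
        rw [e, ht, xinv hC.mod.pin, hC.mod.pin.add, hC.mod.pin.add]⟩
    · refine ⟨b + (wt α β 3 * c + c), ?_⟩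
      have c1 := (hC.kb.tL h hh.1).eq
      rw [hC.mod.pin.add, hC.mod.pin.add, ← ht, e]
      congr 1
      calc h * (t * x 3 c) * h⁻¹ * (t * x 3 c)⁻¹
          = h * t * h⁻¹ * (h * x 3 c * h⁻¹ * (x 3 c)⁻¹) * t⁻¹ := by group
        _ = t * (h * x 3 c * h⁻¹ * x 3 c) * t⁻¹ := by
            rw [← c1, mul_inv_cancel_right, xinv hC.mod.pin]
        _ = _ := by rw [ht, ((tx hC 3 _).mul_right (tx hC 3 _)).eq, mul_inv_cancel_right]

variable {Y : Subgroup G}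

theorem same (hC : Ctx L x t) (hA : P ≤ C[A3 x 3]) (hY : Pre L x t P Y) {y p : G} (hy : y ∈ Y)
    {a : F} (h : y * t * y⁻¹ = t * x 3 a) (h' : p * t * p⁻¹ = t * x 3 a) :
    Commute (y⁻¹ * p) t := by
  have := lam_mul hC (C[A3 x 3].inv_mem (hA (hY.sub hy))) (lam_inv hC (hA (hY.sub hy)) h) h'
  rwa [aa hC.mod.pin, lam_zero hC] at this

theorem comm_mul {p u u' z z' : G} (h : ⁅p, u⁆ = z) (h' : ⁅p, u'⁆ = z') (c : Commute u z') :
    ⁅p, u * u'⁆ = z * z' := by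
  have : ⁅p, u * u'⁆ = ⁅p, u⁆ * (u * ⁅p, u'⁆ * u⁻¹) := by
    simp only [commutatorElement_def]; group
  rw [this, h, h', c.eq, mul_inv_cancel_right]

theorem comm_conj (h p u : G) : ⁅h * p * h⁻¹, h * u * h⁻¹⁆ = h * ⁅p, u⁆ * h⁻¹ := by
  simp only [commutatorElement_def]; group

/-- The action on `X₁` is determined by the action on `x₁(1)`. -/
theorem act1 (hC : Ctx L x t) (hP : Hat1 L x t P) {p : G} (hp : p ∈ P) :
    ∃ f, ∀ s, ⁅p, x 1 s⁆ = x 2 (f * s) := by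
  have pin := hC.mod.pin
  obtain ⟨f, g, e⟩ := (hC.kp.memZ _).mp (hP.cU p hp (x 1 1) ((hC.kp.memU _).mpr
    ⟨1, 0, 0, 0, by simp [x0 pin]⟩))
  have sc : ∀ s : F, s ≠ 0 → ⁅p, x 1 s⁆ = x 2 (f * s) * x 3 g := by
    intro s hs
    obtain ⟨h, hh, ht⟩ := hC.kp.tor (Units.mk0 s hs) (Units.mk0 s hs)⁻¹
    have w1 : wt (Units.mk0 s hs) (Units.mk0 s hs)⁻¹ 1 = Units.mk0 s hs := if_pos rfl
    have w2 : wt (Units.mk0 s hs) (Units.mk0 s hs)⁻¹ 2 = Units.mk0 s hs := by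
      rw [wt, if_neg (by decide), if_pos rfl, pow_two, mul_inv_cancel_right]
    have w3 : wt (Units.mk0 s hs) (Units.mk0 s hs)⁻¹ 3 = 1 := by
      rw [wt, if_neg (by decide), if_neg (by decide), if_pos rfl, mul_inv_cancel]
    have hT : h ∈ TT x L 3 := (hC.kb.memT 3 h).mpr ⟨hh.1, _, _, ht, w3⟩
    have c : h * p * h⁻¹ = p := by rw [(hP.cen hp).2 h hT, mul_inv_cancel_right]
    have h1 := comm_conj h p (x 1 1)
    rw [c, ht, w1, e] at h1
    have h2 : h * (x 2 f * x 3 g) * h⁻¹ = h * x 2 f * h⁻¹ * (h * x 3 g * h⁻¹) := by group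
    rw [h2, ht, ht, w2, w3] at h1
    simpa [mul_comm] using h1
  obtain ⟨γ, hγ, -⟩ := hC.kb.ne1
  have hγ' : (γ : F) + 1 ≠ 0 := fun e => hγ (Units.ext (by
    rw [Units.val_one]; linear_combination e - aa pin 1))
  have c12 : ∀ a b, Commute (x 1 a) (x 2 b) := pin.c1 1
  have c13 : ∀ a b, Commute (x 1 a) (x 3 b) := pin.c2 1
  have c23 : ∀ a b, Commute (x 2 a) (x 3 b) := pin.c1 2
  have h1 := comm_mul (sc γ γ.ne_zero) (sc 1 one_ne_zero) ((c12 _ _).mul_right (c13 _ _))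
  rw [← pin.add, sc _ hγ', (c23 _ _).symm.mul_mul_mul_comm, xx pin, ← pin.add, ← mul_add] at h1
  have h2 : x 3 g = 1 := mul_left_cancel h1
  refine ⟨f, fun s => ?_⟩
  by_cases hs : s = 0
  · simp [hs, x0 pin]
  · rw [sc s hs, h2, mul_one]

theorem main (hC : Ctx L x t) (hP : Hat1 L x t P) (hA : P ≤ C[A3 x 3]) (hY : Pre L x t P Y) :
    ∃ c l, Hat3 L x t c l Y := by
  have pin := hC.mod.pin
  obtain ⟨y1, hy1, h1⟩ := hY.surj 1
  obtain ⟨c, hc⟩ := sq hC hP hA (hY.sub hy1)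
  obtain ⟨l, hl⟩ := act1 hC hP (hY.sub hy1)
  have c13 : ∀ a b, Commute (x 1 a) (x 3 b) := pin.c2 1
  have key : ∀ y ∈ Y, ∀ a, y * t * y⁻¹ = t * x 3 a →
      y * y = x 3 (c * a) ∧ ∀ s, ⁅y, x 1 s⁆ = x 2 (l * a * s) := by
    intro y hy a ha
    by_cases h0 : a = 0
    · rw [h0, lam_zero hC] at ha
      obtain ⟨b, rfl⟩ := hY.fix y hy ha
      exact ⟨by rw [h0, mul_zero, x0 pin, xx pin], fun s => by
        rw [h0, mul_zero, zero_mul, x0 pin]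
        exact commutatorElement_eq_one_iff_commute.mpr (c13 s b).symm⟩
    obtain ⟨h, hh, ht⟩ := hC.kp.tor 1 (Units.mk0 a h0)
    have w1 : wt 1 (Units.mk0 a h0) 1 = 1 := if_pos rfl
    have w2 : wt 1 (Units.mk0 a h0) 2 = Units.mk0 a h0 := by
      rw [wt, if_neg (by decide), if_pos rfl, one_pow, one_mul]
    have w3 : wt 1 (Units.mk0 a h0) 3 = Units.mk0 a h0 := by
      rw [wt, if_neg (by decide), if_neg (by decide), if_pos rfl, one_mul]
    have m := hY.nH h hh y1 hy1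
    have h2 := lam_tor hC hh ht h1
    rw [w3, Units.val_mk0, mul_one] at h2
    obtain ⟨b, hb⟩ := hY.fix _ (Y.mul_mem (Y.inv_mem m) hy) (same hC hA hY m h2 ha)
    have e : y = h * y1 * h⁻¹ * x 3 b := by rw [← hb, mul_inv_cancel_left]
    constructor
    · rw [e, (cx hC (hA (hY.sub m)) b).symm.mul_mul_mul_comm, xx pin, mul_one]
      calc h * y1 * h⁻¹ * (h * y1 * h⁻¹) = h * (y1 * y1) * h⁻¹ := by group
        _ = _ := by rw [hc, ht, w3, Units.val_mk0, mul_comm]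
    · intro s
      have h3 := comm_conj h y1 (x 1 s)
      rw [ht, w1, Units.val_one, one_mul, hl, ht, w2, Units.val_mk0] at h3
      have h4 : ⁅y, x 1 s⁆ = ⁅h * y1 * h⁻¹, x 1 s⁆ := by
        rw [e, commutatorElement_def, commutatorElement_def, mul_assoc _ (x 3 b), ← (c13 s b).eq]
        group
      rw [h4, h3]
      congr 1
      ring
  have mov : ∀ y ∈ Y, ∃ a, y * t * y⁻¹ = t * x 3 a := fun y hy => hP.mov y (hY.sub hy)
  refine ⟨c, l, fun p => ⟨fun hp => ?_, ?_⟩, hY.le, hY.surj, hY.fix, ?_,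
    fun k h1 h2 h3 p hp => hP.odd k h1 h2 h3 p (hY.sub hp), fun p hp a ha => (key p hp a ha).2⟩
  · obtain ⟨a, ha⟩ := mov p hp
    refine ⟨hA (hY.sub hp), (hP.cen (hY.sub hp)).2, ⟨a, ha, (key p hp a ha).1⟩, ?_⟩
    rintro ⟨b, e⟩
    obtain ⟨b', e'⟩ := hY.fix p hp (by rw [e]; exact (Commute.refl t).mul_left (tx hC 3 b).symm)
    refine hC.noL t ⟨1, by simp⟩ ?_
    have : t = x 3 b' * (x 3 b)⁻¹ := by rw [← e', e, mul_inv_cancel_right]
    rw [this]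
    exact L.mul_mem (hC.kb.xL _ _) (L.inv_mem (hC.kb.xL _ _))
  · rintro ⟨hp1, hp2, ⟨a, ha, hs⟩, hn⟩
    obtain ⟨y, hy, hy'⟩ := hY.surj a
    have cy := hA (hY.sub hy)
    obtain ⟨b, o, ho, e⟩ := hC.kb.cAT 3 _ (same hC hA hY hy hy' ha)
      (C[A3 x 3].mul_mem (C[A3 x 3].inv_mem cy) hp1)
      (C[TT x L 3].mul_mem (C[TT x L 3].inv_mem (hP.cen (hY.sub hy)).2) hp2)
    have oy : Commute o y := hP.odd o ho.1 ho.2.1 ho.2.2 y (hY.sub hy)
    have ox : Commute o (x 3 b) := Commute.symm (ho.1 _ (hC.kb.xL 3 b))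
    have ys := (key y hy a hy').1
    rcases e with e | e
    · have e1 : p = y * x 3 b * o := by rw [mul_assoc, ← e, mul_inv_cancel_left]
      rw [e1, (oy.mul_right ox).mul_mul_mul_comm, (cx hC cy b).symm.mul_mul_mul_comm, xx pin,
        mul_one, ys] at hs
      have h2 : o = 1 := odd_sq ho.2.2 (n := 1) (by rw [pow_one, pow_two]; exact mul_eq_left.mp hs)
      rw [e1, h2, mul_one]
      exact Y.mul_mem hy (hY.le b)
    · have e1 : p = y * (t * x 3 b) * o := by rw [mul_assoc, ← e, mul_inv_cancel_left]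
      have e2 : y * (t * x 3 b) * (y * (t * x 3 b)) = x 3 (c * a) * x 3 a := by
        have h2 := lam_inv hC cy hy'
        calc y * (t * x 3 b) * (y * (t * x 3 b))
            = y * t * (x 3 b * y) * (t * x 3 b) := by group
          _ = y * y * (y⁻¹ * t * y⁻¹⁻¹) * (x 3 b * t * x 3 b) := by
              rw [← (cx hC cy b).eq]; group
          _ = x 3 (c * a) * (t * x 3 a * t) := by
              rw [ys, h2, ← (tx hC 3 b).eq, mul_assoc t, xx pin, mul_one, mul_assoc]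
          _ = _ := by rw [(tx hC 3 a).eq, mul_assoc (x 3 a), tt hC, mul_one]
      rw [e1, (oy.mul_right (ho.2.1.mul_right ox)).mul_mul_mul_comm, e2, mul_assoc] at hs
      obtain ⟨O, hO⟩ := hC.kb.od
      have ho2 : o * o ∈ Od L t := by
        rw [← hO] at ho ⊢
        exact O.mul_mem ho ho
      obtain ⟨h2, h3⟩ := (hC.kb.lto _ (hC.kb.xL 3 a) _ ho2).1 (mul_eq_left.mp hs)
      have h4 : o = 1 := odd_sq ho.2.2 (n := 1) (by rw [pow_one, pow_two]; exact h3)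
      rw [pin.inj 3 a h2, lam_zero hC] at hy'
      obtain ⟨b', rfl⟩ := hY.fix y hy hy'
      exact absurd ⟨b' + b, by
        rw [e1, h4, mul_one, ← mul_assoc, ← (tx hC 3 b').eq, pin.add, mul_assoc]⟩ hn
  · intro p hp p' hp'
    obtain ⟨a, ha⟩ := mov p hp
    obtain ⟨a', ha'⟩ := mov p' hp'
    have h2 := (key _ (Y.mul_mem hp hp') _ (lam_mul hC (hA (hY.sub hp)) ha ha')).1
    rw [mul_add, pin.add, ← (key p hp a ha).1, ← (key p' hp' a' ha').1] at h2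
    have h3 : p * (p' * p) * p' = p * (p * p') * p' := by
      simpa only [mul_assoc] using h2
    exact (mul_left_cancel (mul_right_cancel h3)).symm

theorem hat3 : Hat3Stmt.{u, v} := by
  intro F _ _ G _ _ L x t hC P hP hA
  obtain ⟨Y, hY⟩ := pre hC hP hA
  obtain ⟨c, l, h⟩ := main hC hP hA hY
  exact ⟨c, l, Y, h⟩

theorem eqns_S4H3 : True := by
  have := @YY.eq_1.{0, 0}
  trivial

end Cfsg.Agent.H13.S4H3
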