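import Cfsg.Agent.H42.VpDefs
import Cfsg.Agent.H11.PermChar

/-! Project VP, piece I2. -/

set_option autoImplicit false

namespace Cfsg.Agent.H13.VpI2

open Subgroup Cfsg.Agent.H42.Vp

universe u

theorem i2 : I2Stmt.{u} := by
  intro G _ _ p hp K hK x hc ⟨m, hm⟩ h
  classical
  have : Fact p.Prime := ⟨hp⟩
  have key : ∀ k ∈ K, ∃ g ∈ K, x * (g * k * g⁻¹) * x⁻¹ = g * k * g⁻¹ := fun k hk => by
    letI : MulAction K G := MulAction.compHom G ((MulAut.conj : G →* MulAut G).comp K.subtype)
    have hs : ∀ (g : K) (a : G), g • a = g.1 * a * g.1⁻¹ := fun _ _ => rfl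
    have := Fintype.ofFinite (MulAction.orbit K k)
    have hd : Fintype.card (MulAction.orbit K k) ∣ Nat.card K := by
      rw [← Nat.card_eq_fintype_card, Nat.card_congr (MulAction.orbitEquivQuotientStabilizer K k)]
      exact card_quotient_dvd_card _
    let f : Function.End (MulAction.orbit K k) := fun a => ⟨x * a.1 * x⁻¹, by
      obtain ⟨_, g, rfl⟩ := a
      obtain ⟨t, ht, e⟩ := h k hk
      refine ⟨⟨x * g.1 * x⁻¹ * t, mul_mem (hK.conj_mem _ g.2 x) ht⟩, ?_⟩
      simp only [hs]
      calc _ = x * g.1 * x⁻¹ * (t * k * t⁻¹) * (x * g.1 * x⁻¹)⁻¹ := by group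
        _ = _ := by rw [← e]; group⟩
    have hf : ∀ (n : ℕ) (a : MulAction.orbit K k), ((f ^ n) a).1 = x ^ n * a.1 * (x ^ n)⁻¹ := by
      intro n
      induction n with
      | zero => intro a; simp; rfl
      | succ n ih =>
        intro a
        rw [pow_succ']
        show x * ((f ^ n) a).1 * x⁻¹ = _
        rw [ih, pow_succ']
        group
    have e := Equiv.Perm.card_fixedPoints_modEq (f := f) (p := p) (n := m)
      (funext fun a => Subtype.ext (by rw [hf, hm]; simp; rfl))
    by_contra hn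
    have z : Fintype.card (Function.fixedPoints f) = 0 := by
      rw [Fintype.card_eq_zero_iff]
      refine ⟨fun a => hn ?_⟩
      obtain ⟨⟨_, g, rfl⟩, ha⟩ := a
      exact ⟨g.1, g.2, congrArg Subtype.val ha⟩
    rw [z] at e
    exact hp.one_lt.ne' (Nat.eq_one_of_dvd_coprimes hc (((Nat.modEq_zero_iff_dvd).1 e).trans hd) dvd_rfl)
  have top := Cfsg.Agent.H11.eq_top_of_forall_exists_conj_mem
    ((centralizer ({x} : Set G)).subgroupOf K) (fun k => by
      obtain ⟨g, hg, e⟩ := key k.1 k.2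
      refine ⟨⟨g, hg⟩, ?_⟩
      rw [mem_subgroupOf, mem_centralizer_singleton_iff]
      exact (mul_inv_eq_iff_eq_mul.1 e).symm)
  intro k hk
  have := subgroupOf_eq_top.1 top hk
  exact mem_centralizer_singleton_iff.1 this

end Cfsg.Agent.H13.VpI2
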